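import Mathlib

set_option autoImplicit false

/-!
# Semidihedral relations of order 16

Pure group theory around two elements `a`, `b` with `a⁸ = 1`, `a⁴ ≠ 1`, `b² = 1`, `b a b⁻¹ = a³`:
normal form in `closure {a, b}`, the closure is a 2-group, fourth powers of normalizing elements
centralize it, and a closure certificate for strongly closed subgroups.
-/

namespace Cfsg.Agent.Lib.Helper86.SD16

variable {G : Type*} [Group G]

/-- The semidihedral relations (of order 16) for a pair of elements. -/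
structure Rel (a b : G) : Prop where
  a8 : a ^ 8 = 1
  a4 : a ^ 4 ≠ 1
  b2 : b ^ 2 = 1
  ba : b * a * b⁻¹ = a ^ 3

namespace Rel

variable {a b : G}

theorem b_mul_b (h : Rel a b) : b * b = 1 := by rw [← pow_two]; exact h.b2

theorem b_inv (h : Rel a b) : b⁻¹ = b := (eq_inv_of_mul_eq_one_left h.b_mul_b).symm

theorem b_a (h : Rel a b) : b * a = a ^ 3 * b := by
  have := h.ba
  rwa [mul_inv_eq_iff_eq_mul] at this

theorem b_apow (h : Rel a b) (n : ℕ) : b * a ^ n = a ^ (3 * n) * b := by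
  induction n with
  | zero => simp
  | succ n ih =>
    rw [pow_succ, ← mul_assoc, ih, mul_assoc, h.b_a, ← mul_assoc, ← pow_add]
    congr 2

theorem a_inv (h : Rel a b) : a⁻¹ = a ^ 7 := by
  apply inv_eq_of_mul_eq_one_right
  rw [← pow_succ', h.a8]

theorem a_mod (h : Rel a b) (n : ℕ) : a ^ n = a ^ (n % 8) := pow_eq_pow_mod n h.a8

theorem a_pow_eight_mul (h : Rel a b) (n : ℕ) : a ^ (8 * n) = 1 := by
  rw [pow_mul, h.a8, one_pow]

theorem a2 (h : Rel a b) : a ^ 2 ≠ 1 := by
  intro h2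
  apply h.a4
  rw [show 4 = 2 * 2 from rfl, pow_mul, h2, one_pow]

/-- Transport along an injective homomorphism. -/
theorem map {H : Type*} [Group H] (h : Rel a b) (f : G →* H) (hf : Function.Injective f) :
    Rel (f a) (f b) where
  a8 := by rw [← map_pow, h.a8, map_one]
  a4 := by
    rw [← map_pow]
    intro h4
    exact h.a4 (hf (by rw [h4, map_one]))
  b2 := by rw [← map_pow, h.b2, map_one]
  ba := by rw [← map_inv, ← map_mul, ← map_mul, h.ba, map_pow]

/-- Normal form of the elements of `closure {a, b}`. -/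
theorem normal_form (h : Rel a b) {x : G} (hx : x ∈ Subgroup.closure ({a, b} : Set G)) :
    ∃ i : ℕ, x = a ^ i ∨ x = a ^ i * b := by
  induction hx using Subgroup.closure_induction_right with
  | one => exact ⟨0, Or.inl (pow_zero a).symm⟩
  | mul_right x hx y hy ih =>
    obtain ⟨i, rfl | rfl⟩ := ih
    · rcases hy with rfl | rfl
      · exact ⟨i + 1, Or.inl (pow_succ _ _).symm⟩
      · exact ⟨i, Or.inr rfl⟩
    · rcases hy with rfl | rfl
      · refine ⟨i + 3, Or.inr ?_⟩
        rw [mul_assoc, h.b_a, ← mul_assoc, ← pow_add]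
      · refine ⟨i, Or.inl ?_⟩
        rw [mul_assoc, h.b_mul_b, mul_one]
  | mul_inv_cancel x hx y hy ih =>
    obtain ⟨i, rfl | rfl⟩ := ih
    · rcases hy with rfl | rfl
      · refine ⟨i + 7, Or.inl ?_⟩
        rw [h.a_inv, ← pow_add]
      · refine ⟨i, Or.inr ?_⟩
        rw [h.b_inv]
    · rcases hy with rfl | rfl
      · refine ⟨i + 21, Or.inr ?_⟩
        rw [h.a_inv, mul_assoc, h.b_apow, ← mul_assoc, ← pow_add]
      · refine ⟨i, Or.inl ?_⟩
        rw [h.b_inv, mul_assoc, h.b_mul_b, mul_one]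

theorem a_mem (a b : G) : a ∈ Subgroup.closure ({a, b} : Set G) :=
  Subgroup.subset_closure (Set.mem_insert _ _)

theorem b_mem (a b : G) : b ∈ Subgroup.closure ({a, b} : Set G) :=
  Subgroup.subset_closure (Set.mem_insert_of_mem _ rfl)

theorem sq_apow_b (h : Rel a b) (i : ℕ) : (a ^ i * b) ^ 2 = a ^ (4 * i) := by
  rw [pow_two, mul_assoc, ← mul_assoc b, h.b_apow, mul_assoc (a ^ (3 * i)), h.b_mul_b, mul_one,
    ← pow_add]
  congr 1
  omega

theorem pow_four_apow_b (h : Rel a b) (i : ℕ) : (a ^ i * b) ^ 4 = 1 := by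
  rw [show 4 = 2 * 2 from rfl, pow_mul, h.sq_apow_b, ← pow_mul,
    show 4 * i * 2 = 8 * i by omega, h.a_pow_eight_mul]

theorem pow_eight_eq_one (h : Rel a b) {x : G} (hx : x ∈ Subgroup.closure ({a, b} : Set G)) :
    x ^ 8 = 1 := by
  obtain ⟨i, rfl | rfl⟩ := h.normal_form hx
  · rw [← pow_mul, mul_comm, h.a_pow_eight_mul]
  · rw [show 8 = 4 * 2 from rfl, pow_mul, h.pow_four_apow_b, one_pow]

theorem isPGroup (h : Rel a b) : IsPGroup 2 (Subgroup.closure ({a, b} : Set G)) := by
  intro x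
  refine ⟨3, ?_⟩
  apply Subtype.ext
  rw [Subgroup.coe_pow]
  exact h.pow_eight_eq_one x.2

theorem orderOf_a (h : Rel a b) : orderOf a = 8 := by
  have : Fact (Nat.Prime 2) := ⟨Nat.prime_two⟩
  have := orderOf_eq_prime_pow (x := a) (p := 2) (n := 2) h.a4 h.a8
  simpa using this

theorem b_not_mem_zpowers (h : Rel a b) : b ∉ Subgroup.zpowers a := by
  intro hb
  obtain ⟨k, rfl⟩ := Subgroup.mem_zpowers_iff.mp hb
  have h1 := h.ba
  have h2 : a ^ k * a * (a ^ k)⁻¹ = a := by group
  rw [h2] at h1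
  apply h.a2
  have : a * a ^ 2 = a * 1 := by rw [mul_one, ← pow_succ']; exact h1.symm
  exact mul_left_cancel this

/-- If `closure {a, b}` sits inside a subgroup of order 16 then it is that subgroup. -/
theorem closure_eq_of_card (h : Rel a b) {P : Subgroup G} (hP : Subgroup.closure ({a, b} : Set G) ≤ P)
    (hc : Nat.card P = 16) : Subgroup.closure ({a, b} : Set G) = P := by
  have : Finite P := Nat.finite_of_card_ne_zero (by rw [hc]; decide)
  set S₀ := Subgroup.closure ({a, b} : Set G) with hS₀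
  have : Finite S₀ := Finite.of_injective (Subgroup.inclusion hP) (Subgroup.inclusion_injective hP)
  have hz : Subgroup.zpowers a ≤ S₀ := Subgroup.zpowers_le.mpr (a_mem a b)
  have h8 : Nat.card (Subgroup.zpowers a) = 8 := by rw [Nat.card_zpowers, h.orderOf_a]
  have hd1 : 8 ∣ Nat.card S₀ := h8 ▸ Subgroup.card_dvd_of_le hz
  have hd2 : Nat.card S₀ ∣ 16 := hc ▸ Subgroup.card_dvd_of_le hP
  have hne : Nat.card S₀ ≠ 8 := by
    intro h8'
    have := Subgroup.eq_of_le_of_card_ge hz (by rw [h8, h8'])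
    exact h.b_not_mem_zpowers (this ▸ b_mem a b)
  have hle : Nat.card S₀ ≤ 16 := Nat.le_of_dvd (by decide) hd2
  have h16 : Nat.card S₀ = 16 := by
    obtain ⟨k, hk⟩ := hd1
    have hk2 : k ≤ 2 := by omega
    interval_cases k
    · rw [hk] at hd2; simp at hd2
    · exact absurd hk hne
    · exact hk
  exact Subgroup.eq_of_le_of_card_ge hP (by rw [hc, h16])

/-- Fourth powers of elements normalizing `closure {a, b}` centralize it. -/
theorem pow_four_comm (h : Rel a b) {n : G}
    (hn : n ∈ Subgroup.normalizer ((Subgroup.closure ({a, b} : Set G) : Subgroup G) : Set G))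
    {x : G} (hx : x ∈ Subgroup.closure ({a, b} : Set G)) : n ^ 4 * x * (n ^ 4)⁻¹ = x := by
  set φ : MulAut G := MulAut.conj n with hφ
  have hφS : ∀ y, y ∈ Subgroup.closure ({a, b} : Set G) → φ y ∈ Subgroup.closure ({a, b} : Set G) := by
    intro y hy
    rw [hφ, MulAut.conj_apply]
    exact (Subgroup.mem_normalizer_iff.mp hn y).mp hy
  -- the image of `a`
  obtain ⟨i, hi, hφa⟩ : ∃ i : ℕ, i % 2 = 1 ∧ φ a = a ^ i := by
    obtain ⟨i, hi | hi⟩ := h.normal_form (hφS a (a_mem a b))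
    · refine ⟨i, ?_, hi⟩
      by_contra hodd
      have hφ4 : φ (a ^ 4) = 1 := by
        rw [map_pow, hi, ← pow_mul]
        obtain ⟨k, rfl⟩ : ∃ k, i = 2 * k := ⟨i / 2, by omega⟩
        rw [show 2 * k * 4 = 8 * k by omega, h.a_pow_eight_mul]
      exact h.a4 (φ.injective (by rw [hφ4, map_one]))
    · exfalso
      have hφ4 : φ (a ^ 4) = 1 := by rw [map_pow, hi, h.pow_four_apow_b]
      exact h.a4 (φ.injective (by rw [hφ4, map_one]))
  -- the image of `b`
  obtain ⟨m, hm, hφb⟩ : ∃ m : ℕ, m % 2 = 0 ∧ φ b = a ^ m * b := by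
    obtain ⟨m, hm | hm⟩ := h.normal_form (hφS b (b_mem a b))
    · exfalso
      have h1 : φ (b * a * b⁻¹) = φ (a ^ 3) := by rw [h.ba]
      rw [map_mul, map_mul, map_inv, map_pow, hm, hφa] at h1
      have h2 : a ^ m * a ^ i * (a ^ m)⁻¹ = a ^ i := by group
      rw [h2] at h1
      have h3 : φ (a ^ 2) = 1 := by
        rw [map_pow, hφa]
        have : a ^ i * (a ^ i) ^ 2 = a ^ i * 1 := by rw [mul_one, ← pow_succ']; exact h1.symm
        exact mul_left_cancel this
      exact h.a2 (φ.injective (by rw [h3, map_one]))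
    · refine ⟨m, ?_, hm⟩
      by_contra hodd
      have h1 : φ (b ^ 2) = 1 := by rw [h.b2, map_one]
      rw [map_pow, hm, h.sq_apow_b] at h1
      obtain ⟨k, rfl⟩ : ∃ k, m = 2 * k + 1 := ⟨m / 2, by omega⟩
      rw [show 4 * (2 * k + 1) = 8 * k + 4 by omega, pow_add, h.a_pow_eight_mul, one_mul] at h1
      exact h.a4 h1
  obtain ⟨s, rfl⟩ : ∃ s, i = 2 * s + 1 := ⟨i / 2, by omega⟩
  obtain ⟨t, rfl⟩ : ∃ t, m = 2 * t := ⟨m / 2, by omega⟩
  -- `φ²`
  have hψa : φ (φ a) = a := by
    rw [hφa, map_pow, hφa, ← pow_mul]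
    obtain ⟨r, hr⟩ := Nat.even_mul_succ_self s
    rw [show (2 * s + 1) * (2 * s + 1) = 8 * r + 1 by
      have : (2 * s + 1) * (2 * s + 1) = 4 * (s * (s + 1)) + 1 := by ring
      rw [this, hr]; ring]
    rw [pow_add, h.a_pow_eight_mul, one_mul, pow_one]
  have hψb : φ (φ b) = a ^ (4 * ((s + 1) * t)) * b := by
    rw [hφb, map_mul, map_pow, hφa, hφb, ← pow_mul, ← mul_assoc, ← pow_add]
    congr 2
    ring
  have h4a : φ (φ (φ (φ a))) = a := by rw [hψa, hψa]
  have h4b : φ (φ (φ (φ b))) = b := by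
    rw [hψb, map_mul, map_mul, map_pow, map_pow, hψa, hψb, ← mul_assoc, ← pow_add,
      show 4 * ((s + 1) * t) + 4 * ((s + 1) * t) = 8 * ((s + 1) * t) by ring,
      h.a_pow_eight_mul, one_mul]
  have hφ4 : ∀ y, n ^ 4 * y * (n ^ 4)⁻¹ = φ (φ (φ (φ y))) := by
    intro y
    simp only [hφ, MulAut.conj_apply, pow_succ, pow_zero, one_mul, mul_inv_rev, mul_assoc]
  rw [hφ4]
  -- the fixed points of `φ⁴` form a subgroup containing `a` and `b`
  let K : Subgroup G :=
    { carrier := {y | φ (φ (φ (φ y))) = y}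
      mul_mem' := by
        intro y z hy hz
        have hy' : φ (φ (φ (φ y))) = y := hy
        have hz' : φ (φ (φ (φ z))) = z := hz
        change φ (φ (φ (φ (y * z)))) = y * z
        rw [map_mul, map_mul, map_mul, map_mul, hy', hz']
      one_mem' := by
        change φ (φ (φ (φ 1))) = 1
        rw [map_one, map_one, map_one, map_one]
      inv_mem' := by
        intro y hy
        have hy' : φ (φ (φ (φ y))) = y := hy
        change φ (φ (φ (φ y⁻¹))) = y⁻¹
        rw [map_inv, map_inv, map_inv, map_inv, hy'] }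
  have hK : Subgroup.closure ({a, b} : Set G) ≤ K := by
    rw [Subgroup.closure_le]
    rintro y (rfl | rfl)
    · exact h4a
    · exact h4b
  exact hK hx

/-- A nontrivial subgroup `T` of `closure {a, b}` that contains every conjugate in `closure {a, b}`
of each of its elements is everything, provided `a⁴` is conjugate to `b` and `a²` to `a⁵ b`. -/
theorem le_of_closed (h : Rel a b) {g₁ g₂ : G} (h1 : g₁ * a ^ 4 * g₁⁻¹ = b)
    (h2 : g₂ * a ^ 2 * g₂⁻¹ = a ^ 5 * b) {T : Subgroup G}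
    (hT : T ≤ Subgroup.closure ({a, b} : Set G)) (hne : T ≠ ⊥)
    (hcl : ∀ x ∈ T, ∀ g : G, g * x * g⁻¹ ∈ Subgroup.closure ({a, b} : Set G) → g * x * g⁻¹ ∈ T) :
    Subgroup.closure ({a, b} : Set G) ≤ T := by
  have haS := a_mem a b
  have hbS := b_mem a b
  have hb' : b * a⁻¹ * b⁻¹ = (a ^ 3)⁻¹ := by rw [← h.ba]; group
  -- `a⁴ ∈ T`
  have ha4 : a ^ 4 ∈ T := by
    obtain ⟨x, hx1⟩ := (Subgroup.ne_bot_iff_exists_ne_one).mp hne
    have hx1' : (x : G) ≠ 1 := fun h => hx1 (Subtype.ext h)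
    have hxT' : (x : G) ∈ T := x.2
    obtain ⟨i, hi | hi⟩ := h.normal_form (hT hxT')
    · rw [hi, h.a_mod] at hx1' hxT'
      have hlt : i % 8 < 8 := Nat.mod_lt _ (by decide)
      generalize i % 8 = r at hx1' hxT' hlt
      interval_cases r
      · exact absurd (pow_zero a) hx1'
      · have := T.pow_mem hxT' 4
        rwa [← pow_mul] at this
      · have := T.pow_mem hxT' 2
        rwa [← pow_mul] at this
      · have := T.pow_mem hxT' 4
        rwa [← pow_mul, h.a_mod] at this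
      · exact hxT'
      · have := T.pow_mem hxT' 4
        rwa [← pow_mul, h.a_mod] at this
      · have := T.pow_mem hxT' 2
        rwa [← pow_mul, h.a_mod] at this
      · have := T.pow_mem hxT' 4
        rwa [← pow_mul, h.a_mod] at this
    · have hc : a * (x : G) * a⁻¹ ∈ T := by
        apply hcl _ hxT'
        exact Subgroup.mul_mem _ (Subgroup.mul_mem _ haS (hT hxT')) (Subgroup.inv_mem _ haS)
      have hm : a * (x : G) * a⁻¹ * (x : G)⁻¹ ∈ T := T.mul_mem hc (T.inv_mem hxT')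
      have e : a * (x : G) * a⁻¹ * (x : G)⁻¹ = (a ^ 2)⁻¹ := by
        rw [hi]
        have : a * (a ^ i * b) * a⁻¹ * (a ^ i * b)⁻¹ = a * a ^ i * (b * a⁻¹ * b⁻¹) * (a ^ i)⁻¹ := by
          group
        rw [this, hb']
        group
      rw [e] at hm
      have hm2 : a ^ 2 ∈ T := by simpa using T.inv_mem hm
      have := T.pow_mem hm2 2
      rwa [← pow_mul] at this
  -- `b ∈ T`
  have hbT : b ∈ T := by
    have := hcl _ ha4 g₁ (by rw [h1]; exact hbS)
    rwa [h1] at this
  -- `a² ∈ T`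
  have ha2 : a ^ 2 ∈ T := by
    have hc : a * b * a⁻¹ ∈ T := by
      apply hcl _ hbT
      exact Subgroup.mul_mem _ (Subgroup.mul_mem _ haS hbS) (Subgroup.inv_mem _ haS)
    have hm : a * b * a⁻¹ * b⁻¹ ∈ T := T.mul_mem hc (T.inv_mem hbT)
    have e : a * b * a⁻¹ * b⁻¹ = (a ^ 2)⁻¹ := by
      have : a * b * a⁻¹ * b⁻¹ = a * (b * a⁻¹ * b⁻¹) := by group
      rw [this, hb']
      group
    rw [e] at hm
    simpa using T.inv_mem hm
  -- `a ∈ T`
  have haT : a ∈ T := by
    have h5b : a ^ 5 * b ∈ T := by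
      have := hcl _ ha2 g₂ (by
        rw [h2]; exact Subgroup.mul_mem _ (Subgroup.pow_mem _ haS 5) hbS)
      rwa [h2] at this
    have h5 : a ^ 5 ∈ T := by
      have := T.mul_mem h5b (T.inv_mem hbT)
      rwa [mul_inv_cancel_right] at this
    have := T.pow_mem h5 5
    rwa [← pow_mul, h.a_mod, show 5 * 5 % 8 = 1 from rfl, pow_one] at this
  rw [Subgroup.closure_le]
  rintro y (rfl | rfl)
  · exact haT
  · exact hbT

end Rel

end Cfsg.Agent.Lib.Helper86.SD16
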