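import Mathlib
import Cfsg.Agent.Lib.Helper12.AOStmt

/-!
# S4068 piece ARI2 (helper86)
-/

set_option autoImplicit false

namespace Cfsg.Agent.Lib.Helper86.AOARI2

open Cfsg.Agent.Lib.Helper12.AOStmt

universe u

theorem main : Cfsg.Agent.Lib.Helper12.AOStmt.Ari2 := by
  intro n hn h
  have hprod : ∏ p ∈ n.primeFactors, p ^ n.factorization p = n := by
    have h1 := Nat.prod_factorization_pow_eq_self hn
    rwa [Finsupp.prod, Nat.support_factorization] at h1
  have hcases : n.primeFactors.card = 0 ∨ n.primeFactors.card = 1 ∨ n.primeFactors.card = 2 := by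
    omega
  rcases hcases with h0 | h1 | h2
  · rw [Finset.card_eq_zero] at h0
    rw [h0, Finset.prod_empty] at hprod
    exact ⟨2, 2, 0, 0, Nat.prime_two, Nat.prime_two, by rw [← hprod]; norm_num⟩
  · obtain ⟨p, hp⟩ := Finset.card_eq_one.mp h1
    have hpp : p.Prime :=
      Nat.prime_of_mem_primeFactors (by rw [hp]; exact Finset.mem_singleton_self p)
    rw [hp, Finset.prod_singleton] at hprod
    exact ⟨p, p, n.factorization p, 0, hpp, hpp, by rw [pow_zero, mul_one, hprod]⟩
  · obtain ⟨p, q, hpq, hs⟩ := Finset.card_eq_two.mp h2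
    have hpp : p.Prime := Nat.prime_of_mem_primeFactors (by rw [hs]; simp)
    have hqp : q.Prime := Nat.prime_of_mem_primeFactors (by rw [hs]; simp)
    rw [hs, Finset.prod_pair hpq] at hprod
    exact ⟨p, q, _, _, hpp, hqp, hprod.symm⟩

end Cfsg.Agent.Lib.Helper86.AOARI2
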