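import Mathlib
import Cfsg.Agent.Lib.Helper12.AOStmt

/-!
# S4068 piece ARIQ1 (helper86)
-/

set_option autoImplicit false

namespace Cfsg.Agent.Lib.Helper86.AOARIQ1

open Cfsg.Agent.Lib.Helper12.AOStmt

universe u

theorem main : Cfsg.Agent.Lib.Helper12.AOStmt.AriQ1 := by
  intro f hf h
  have hq : 4 ≤ 2 ^ f := by
    calc 4 = 2 ^ 2 := by norm_num
      _ ≤ 2 ^ f := Nat.pow_le_pow_right (by norm_num) hf
  have h2q : 2 ∣ 2 ^ f := dvd_pow_self 2 (by omega)
  have hodd1 : ¬ 2 ∣ 2 ^ f - 1 := by omega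
  have hodd2 : ¬ 2 ∣ 2 ^ f + 1 := by omega
  have c1 : Nat.Coprime (2 ^ f) (2 ^ f - 1) :=
    Nat.Coprime.pow_left f ((Nat.Prime.coprime_iff_not_dvd Nat.prime_two).mpr hodd1)
  have c2 : Nat.Coprime (2 ^ f) (2 ^ f + 1) :=
    Nat.Coprime.pow_left f ((Nat.Prime.coprime_iff_not_dvd Nat.prime_two).mpr hodd2)
  have c3 : Nat.Coprime (2 ^ f - 1) (2 ^ f + 1) := by
    have e : 2 ^ f + 1 = 2 + (2 ^ f - 1) := by omega
    rw [e, Nat.coprime_add_self_right, Nat.coprime_comm]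
    exact (Nat.Prime.coprime_iff_not_dvd Nat.prime_two).mpr hodd1
  have c12 : Nat.Coprime (2 ^ f * (2 ^ f - 1)) (2 ^ f + 1) := Nat.Coprime.mul_left c2 c3
  rw [c12.primeFactors_mul, Finset.card_union_of_disjoint c12.disjoint_primeFactors,
    c1.primeFactors_mul, Finset.card_union_of_disjoint c1.disjoint_primeFactors] at h
  have ha : (2 ^ f).primeFactors.card = 1 := by
    rw [Nat.primeFactors_prime_pow (by omega) Nat.prime_two]
    rfl
  have hb : 1 ≤ (2 ^ f - 1).primeFactors.card :=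
    Finset.card_pos.mpr (Nat.nonempty_primeFactors.mpr (by omega))
  have hc : 1 ≤ (2 ^ f + 1).primeFactors.card :=
    Finset.card_pos.mpr (Nat.nonempty_primeFactors.mpr (by omega))
  exact ⟨isPrimePow_iff_card_primeFactors_eq_one.mpr (by omega),
    isPrimePow_iff_card_primeFactors_eq_one.mpr (by omega)⟩

end Cfsg.Agent.Lib.Helper86.AOARIQ1
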