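import Mathlib
import Cfsg.Agent.Lib.Helper12.AOStmt
import Cfsg.Agent.Lib.Helper5.SL2Card
/-!
# S4068 piece CARD (helper86)
-/

set_option autoImplicit false

namespace Cfsg.Agent.Lib.Helper86.AOCARD

open Cfsg.Agent.Lib.Helper12.AOStmt

universe u

theorem main : Cfsg.Agent.Lib.Helper12.AOStmt.CardPSL := by
  intro F _ _ f hf hF
  have h := Cfsg.Agent.Lib.Helper5.SL2Card.card_PSL_two hF
  have h2q : 2 ∣ 2 ^ f := dvd_pow_self 2 (by omega)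
  have hq1 : 1 ≤ 2 ^ f := Nat.one_le_two_pow
  have hgcd : Nat.gcd 2 (2 ^ f - 1) = 1 := by
    have hodd : ¬ 2 ∣ 2 ^ f - 1 := by omega
    exact (Nat.Prime.coprime_iff_not_dvd Nat.prime_two).mpr hodd
  rw [hgcd, mul_one] at h
  rw [h, mul_assoc]
  congr 1
  have e : (2 ^ f) ^ 2 = (2 ^ f - 1) * (2 ^ f + 1) + 1 := by
    obtain ⟨m, hm⟩ : ∃ m, 2 ^ f = m + 1 := ⟨2 ^ f - 1, by omega⟩
    rw [hm]
    simp only [Nat.add_sub_cancel]
    ring
  rw [e, Nat.add_sub_cancel]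

end Cfsg.Agent.Lib.Helper86.AOCARD
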