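import Mathlib
import Cfsg.Agent.Lib.Helper20.C320Stmt

set_option autoImplicit false
set_option linter.unusedSectionVars false
set_option linter.unusedVariables false

/-!
# S1903 piece CEN (helper86): the centralizer of `Tm φ ε 0 1` in the unitary matrices of
determinant one consists of the matrices `Em`
-/

namespace Cfsg.Agent.Lib.Helper86.C320CEN

open Matrix Cfsg.Agent.Lib.Helper46.SU3Syl Cfsg.Agent.Lib.Helper20.C320Stmt

universe u

theorem main : Cen.{u} := by
  intro F _ φ h2 hinv ε hε g hdet hU hcomm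
  have hPQ := Pm_mul_Qm φ h2 ε hε
  have hQP := Qm_mul_Pm φ h2 ε hε
  obtain ⟨g', hg'⟩ : ∃ g' : Matrix (Fin 3) (Fin 3) F, g' = Qm φ ε * g * Pm φ ε := ⟨_, rfl⟩
  have hg : g = Pm φ ε * g' * Qm φ ε := by
    rw [hg']
    calc g = (Pm φ ε * Qm φ ε) * g * (Pm φ ε * Qm φ ε) := by
          rw [hPQ, Matrix.one_mul, Matrix.mul_one]
      _ = Pm φ ε * (Qm φ ε * g * Pm φ ε) * Qm φ ε := by simp only [Matrix.mul_assoc]
  -- commutation with `gm 0 1`
  have hc : g' * gm φ 0 1 = gm φ 0 1 * g' := by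
    have h1 : Qm φ ε * (g * Tm φ ε 0 1) * Pm φ ε = g' * gm φ 0 1 := by
      rw [hg']
      unfold Tm
      calc Qm φ ε * (g * (Pm φ ε * gm φ 0 1 * Qm φ ε)) * Pm φ ε
          = Qm φ ε * g * Pm φ ε * gm φ 0 1 * (Qm φ ε * Pm φ ε) := by
            simp only [Matrix.mul_assoc]
        _ = Qm φ ε * g * Pm φ ε * gm φ 0 1 := by rw [hQP, Matrix.mul_one]
    have h2' : Qm φ ε * (Tm φ ε 0 1 * g) * Pm φ ε = gm φ 0 1 * g' := by
      rw [hg']
      unfold Tm
      calc Qm φ ε * (Pm φ ε * gm φ 0 1 * Qm φ ε * g) * Pm φ ε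
          = (Qm φ ε * Pm φ ε) * gm φ 0 1 * (Qm φ ε * g * Pm φ ε) := by
            simp only [Matrix.mul_assoc]
        _ = gm φ 0 1 * (Qm φ ε * g * Pm φ ε) := by rw [hQP, Matrix.one_mul]
    rw [← h1, ← h2', hcomm]
  have e10 : g' 1 0 = 0 := by
    have := congrFun (congrFun hc 1) 2
    simpa [gm, Matrix.mul_apply, Fin.sum_univ_three] using this
  have e20 : g' 2 0 = 0 := by
    have := congrFun (congrFun hc 2) 2
    simpa [gm, Matrix.mul_apply, Fin.sum_univ_three] using this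
  have e21 : g' 2 1 = 0 := by
    have := congrFun (congrFun hc 0) 1
    simp [gm, Matrix.mul_apply, Fin.sum_univ_three] at this
    exact this
  have e22 : g' 2 2 = g' 0 0 := by
    have := congrFun (congrFun hc 0) 2
    simp [gm, Matrix.mul_apply, Fin.sum_univ_three] at this
    linear_combination -this
  -- the Hermitian condition in the antidiagonal basis
  have hJ : g'ᵀ * Jm * g'.map φ = Jm := by
    have hQ : (Qm φ ε)ᵀ * Jm * (Qm φ ε).map φ = 1 := by
      rw [← Pm_herm φ h2 hinv ε hε]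
      calc (Qm φ ε)ᵀ * ((Pm φ ε)ᵀ * (Pm φ ε).map φ) * (Qm φ ε).map φ
          = ((Qm φ ε)ᵀ * (Pm φ ε)ᵀ) * ((Pm φ ε).map φ * (Qm φ ε).map φ) := by
            simp only [Matrix.mul_assoc]
        _ = 1 := by
            rw [← Matrix.transpose_mul, ← Matrix.map_mul, hPQ, Matrix.transpose_one,
              Matrix.map_one _ (map_zero φ) (map_one φ), Matrix.mul_one]
    rw [hg', Matrix.map_mul, Matrix.map_mul, Matrix.transpose_mul, Matrix.transpose_mul]
    calc (Pm φ ε)ᵀ * (gᵀ * (Qm φ ε)ᵀ) * Jm * ((Qm φ ε).map φ * g.map φ * (Pm φ ε).map φ)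
        = (Pm φ ε)ᵀ * (gᵀ * ((Qm φ ε)ᵀ * Jm * (Qm φ ε).map φ) * g.map φ) * (Pm φ ε).map φ := by
          simp only [Matrix.mul_assoc]
      _ = Jm := by
          rw [hQ, Matrix.mul_one, hU, Matrix.mul_one, Pm_herm φ h2 hinv ε hε]
  have hdet' : g'.det = 1 := by
    rw [hg', Matrix.det_mul, Matrix.det_mul, hdet, mul_one, ← Matrix.det_mul, hQP, Matrix.det_one]
  have k02 : g' 0 0 * φ (g' 0 0) = 1 := by
    have := congrFun (congrFun hJ 0) 2
    simp [Jm, Matrix.mul_apply, Fin.sum_univ_three, e10, e20, e21, e22] at this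
    exact this
  have k11 : g' 1 1 * φ (g' 1 1) = 1 := by
    have := congrFun (congrFun hJ 1) 1
    simp [Jm, Matrix.mul_apply, Fin.sum_univ_three, e10, e20, e21, e22] at this
    exact this
  have k12 : g' 0 1 * φ (g' 0 0) + g' 1 1 * φ (g' 1 2) = 0 := by
    have := congrFun (congrFun hJ 1) 2
    simp [Jm, Matrix.mul_apply, Fin.sum_univ_three, e10, e20, e21, e22] at this
    linear_combination this
  have k22 : g' 0 2 * φ (g' 0 0) + g' 1 2 * φ (g' 1 2) + g' 0 0 * φ (g' 0 2) = 0 := by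
    have := congrFun (congrFun hJ 2) 2
    simp [Jm, Matrix.mul_apply, Fin.sum_univ_three, e10, e20, e21, e22] at this
    linear_combination this
  have kdet : g' 0 0 * g' 1 1 * g' 0 0 = 1 := by
    have := hdet'
    rw [Matrix.det_fin_three] at this
    simp [e10, e20, e21, e22] at this
    linear_combination this
  have hm : g' 1 1 = φ (g' 0 0) ^ 2 := by
    linear_combination φ (g' 0 0) ^ 2 * kdet - g' 1 1 * (g' 0 0 * φ (g' 0 0) + 1) * k02
  have k12' : φ (g' 0 1) * g' 0 0 + g' 0 0 ^ 2 * g' 1 2 = 0 := by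
    rw [hm] at k12
    have := congrArg φ k12
    simp only [map_add, map_mul, map_pow, hinv, map_zero] at this
    linear_combination this
  have hz : g' 1 2 = φ (g' 0 1) * φ (g' 0 0) := by
    linear_combination φ (g' 0 0) ^ 2 * k12' -
      (g' 1 2 * (g' 0 0 * φ (g' 0 0) + 1) + φ (g' 0 1) * φ (g' 0 0)) * k02 -
      (φ (g' 0 1) * φ (g' 0 0)) * h2
  refine ⟨g' 0 0, g' 0 1 * φ (g' 0 0), g' 0 2 * φ (g' 0 0), k02, ?_, ?_⟩
  · rw [hz] at k22
    simp only [map_mul, hinv] at k22 ⊢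
    linear_combination k22 - (g' 0 1 * φ (g' 0 1) * g' 0 0 * φ (g' 0 0)) * h2
  · have hX : g' = dm φ (g' 0 0) * gm φ (g' 0 1 * φ (g' 0 0)) (g' 0 2 * φ (g' 0 0)) := by
      ext i j
      fin_cases i <;> fin_cases j <;>
        simp [dm, gm, Matrix.mul_apply, Fin.sum_univ_three, e10, e20, e21, e22, hinv]
      · linear_combination (-(g' 0 1)) * k02
      · linear_combination (-(g' 0 2)) * k02
      · exact hm
      · rw [hz]
        linear_combination (-(φ (g' 0 1) * φ (g' 0 0))) * k02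
    unfold Em
    rw [← hX]
    exact hg

end Cfsg.Agent.Lib.Helper86.C320CEN
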