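import Mathlib
import Cfsg.Agent.Lib.Helper20.C320Stmt

set_option autoImplicit false
set_option linter.unusedSectionVars false
set_option linter.unusedVariables false

/-!
# S1903 piece MEM (helper86): the algebra of the matrices `Em`
-/

namespace Cfsg.Agent.Lib.Helper86.C320MEM

open Matrix Cfsg.Agent.Lib.Helper46.SU3Syl Cfsg.Agent.Lib.Helper20.C320Stmt

universe u

section

variable {F : Type u} [Field F] (φ : F →+* F) (h2 : (2 : F) = 0) (hinv : ∀ x, φ (φ x) = x)

include hinv in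
theorem core_mul (l a b l' a' b' : F) (h : l' * φ l' = 1) :
    dm φ l * gm φ a b * (dm φ l' * gm φ a' b') =
      dm φ (l * l') * gm φ (φ l' ^ 3 * a + a') (b + b' + φ l' ^ 3 * a * φ a') := by
  ext i j
  fin_cases i <;> fin_cases j <;>
    simp [dm, gm, Matrix.mul_apply, Fin.sum_univ_three, hinv]
  · linear_combination (-(l * a * φ l' ^ 2)) * h
  · linear_combination (-(l * a * φ l' ^ 2 * φ a')) * h
  · ring
  · linear_combination (-(φ l ^ 2 * φ a * l' * (l' * φ l' + 1))) * h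

theorem dm_det (l : F) (h : l * φ l = 1) : (dm φ l).det = 1 := by
  simp [dm, Matrix.det_fin_three]
  linear_combination (l * φ l + 1) * h

include hinv in
theorem dm_herm (l : F) (h : l * φ l = 1) :
    (dm φ l)ᵀ * Jm * (dm φ l).map φ = Jm := by
  ext i j
  fin_cases i <;> fin_cases j <;>
    simp [dm, Jm, Matrix.mul_apply, Fin.sum_univ_three, hinv]
  · linear_combination h
  · linear_combination (l * φ l + 1) * h
  · linear_combination h

include h2 hinv in
theorem X_herm (l a b : F) (h : l * φ l = 1) (hab : b + φ b = a * φ a) :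
    (dm φ l * gm φ a b)ᵀ * Jm * (dm φ l * gm φ a b).map φ = Jm := by
  rw [Matrix.map_mul, Matrix.transpose_mul]
  calc (gm φ a b)ᵀ * (dm φ l)ᵀ * Jm * ((dm φ l).map φ * (gm φ a b).map φ)
      = (gm φ a b)ᵀ * ((dm φ l)ᵀ * Jm * (dm φ l).map φ) * (gm φ a b).map φ := by
        simp only [Matrix.mul_assoc]
    _ = Jm := by rw [dm_herm φ hinv l h, gm_herm φ h2 hinv a b hab]

end

theorem main : Mem.{u} := by
  intro F _ φ h2 hinv ε hε
  have hPQ := Pm_mul_Qm φ h2 ε hε
  have hQP := Qm_mul_Pm φ h2 ε hε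
  refine ⟨?_, ?_, ?_, ?_, ?_⟩
  · intro l a b l' a' b' h
    unfold Em
    rw [← core_mul φ hinv l a b l' a' b' h]
    calc Pm φ ε * (dm φ l * gm φ a b) * Qm φ ε * (Pm φ ε * (dm φ l' * gm φ a' b') * Qm φ ε)
        = Pm φ ε * (dm φ l * gm φ a b) * (Qm φ ε * Pm φ ε) * (dm φ l' * gm φ a' b') * Qm φ ε := by
          simp only [Matrix.mul_assoc]
      _ = Pm φ ε * (dm φ l * gm φ a b * (dm φ l' * gm φ a' b')) * Qm φ ε := by
          rw [hQP, Matrix.mul_one, Matrix.mul_assoc (Pm φ ε)]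
  · intro l a b h
    unfold Em
    rw [Matrix.det_mul, Matrix.det_mul, Matrix.det_mul, gm_det, dm_det φ l h, mul_one, mul_one,
      ← Matrix.det_mul, hPQ, Matrix.det_one]
  · intro l a b h hab
    have hQ : (Qm φ ε)ᵀ * Jm * (Qm φ ε).map φ = 1 := by
      rw [← Pm_herm φ h2 hinv ε hε]
      calc (Qm φ ε)ᵀ * ((Pm φ ε)ᵀ * (Pm φ ε).map φ) * (Qm φ ε).map φ
          = ((Qm φ ε)ᵀ * (Pm φ ε)ᵀ) * ((Pm φ ε).map φ * (Qm φ ε).map φ) := by
            simp only [Matrix.mul_assoc]
        _ = 1 := by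
            rw [← Matrix.transpose_mul, ← Matrix.map_mul, hPQ, Matrix.transpose_one,
              Matrix.map_one _ (map_zero φ) (map_one φ), Matrix.mul_one]
    unfold Em
    generalize hX : dm φ l * gm φ a b = X
    have hXh : Xᵀ * Jm * X.map φ = Jm := by
      rw [← hX]; exact X_herm φ h2 hinv l a b h hab
    rw [Matrix.map_mul, Matrix.map_mul, Matrix.transpose_mul, Matrix.transpose_mul]
    calc (Qm φ ε)ᵀ * (Xᵀ * (Pm φ ε)ᵀ) * ((Pm φ ε).map φ * X.map φ * (Qm φ ε).map φ)
        = (Qm φ ε)ᵀ * (Xᵀ * ((Pm φ ε)ᵀ * (Pm φ ε).map φ) * X.map φ) *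
            (Qm φ ε).map φ := by
          simp only [Matrix.mul_assoc]
      _ = 1 := by
          rw [Pm_herm φ h2 hinv ε hε, hXh, hQ]
  · intro l a b l' a' b' h hE
    have hg : ∀ l a b, Qm φ ε * Em φ ε l a b * Pm φ ε = dm φ l * gm φ a b := by
      intro l a b
      unfold Em
      calc Qm φ ε * (Pm φ ε * (dm φ l * gm φ a b) * Qm φ ε) * Pm φ ε
          = (Qm φ ε * Pm φ ε) * (dm φ l * gm φ a b) * (Qm φ ε * Pm φ ε) := by
            simp only [Matrix.mul_assoc]
        _ = dm φ l * gm φ a b := by rw [hQP, Matrix.one_mul, Matrix.mul_one]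
    have h' : dm φ l * gm φ a b = dm φ l' * gm φ a' b' := by rw [← hg l a b, ← hg l' a' b', hE]
    have h00 := congrFun (congrFun h' 0) 0
    have h01 := congrFun (congrFun h' 0) 1
    have h02 := congrFun (congrFun h' 0) 2
    simp [dm, gm, Matrix.mul_apply, Fin.sum_univ_three] at h00 h01 h02
    have hl : l ≠ 0 := by
      intro h0; rw [h0, zero_mul] at h; exact zero_ne_one h
    subst h00
    exact ⟨rfl, mul_left_cancel₀ hl h01, mul_left_cancel₀ hl h02⟩
  · intro a b
    have h1 : dm φ (1 : F) = 1 := by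
      ext i j
      fin_cases i <;> fin_cases j <;> simp [dm]
    unfold Em Tm
    rw [h1, Matrix.one_mul]

end Cfsg.Agent.Lib.Helper86.C320MEM
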