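import Mathlib
import Cfsg.Agent.Lib.Helper27.CzStmt

set_option autoImplicit false

/-!
# Piece K1STR of S2136

The pointwise stabiliser of the octad `{∞, 0, 1, 2, 3, 5, 14, 17}` in the group of the
length-24 code and the 32 code words inside the complement of the octad.
-/

namespace Cfsg.Agent.Lib.Helper86.CzK1STR

open Cfsg Cfsg.Agent.Lib.Helper7.GolayBase Cfsg.Agent.Lib.Helper7.GolayCode
  Cfsg.Agent.Lib.Helper7.M24Mem Cfsg.Agent.Lib.Helper7.GolayRigid
  Cfsg.Agent.Lib.Helper7.GolayPerm Cfsg.Agent.Lib.Helper7.ChainGen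
  Cfsg.Agent.Lib.Helper7.M24Data Cfsg.Agent.Lib.Helper7.M24Core
  Cfsg.Agent.Lib.Helper7.M24Main Cfsg.Agent.Lib.Helper7.M24Octad
  Cfsg.Agent.Lib.Helper7.M24Octad2 Cfsg.Agent.Lib.Helper26.OctadStab
  Cfsg.Agent.Lib.Helper27.CzStmt Cfsg.Agent.Lib.Helper92.MinVec
open scoped Pointwise

/-- the tables fixing the octad pointwise -/
def tabs16 : List (List Nat) := tabs.filter (fun t => Oidx.all (fun f => t.getD f 0 == f))

/-- the masks of the code words inside the complement of the octad -/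
def W32 : List Nat := codeList.filter (fun m => m &&& DM == m)

/-- the table `t` maps the mask `m` to the mask `m'` -/
def maps (t : List Nat) (m m' : Nat) : Bool :=
  (List.range 24).all (fun i => m'.testBit (t.getD i 0) == m.testBit i)

theorem smul_mk_of_maps {σ : Equiv.Perm GolayPt} {t : List Nat} (h : Rep σ t) {m m' : Nat}
    (hm : maps t m m' = true) : σ • mk m = mk m' := by
  have key : ∀ p : GolayPt, m'.testBit (idx (σ p)) = m.testBit (idx p) := by
    intro p
    rw [← h.2 p]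
    have h1 := List.all_eq_true.mp hm (idx p) (List.mem_range.mpr (idx_lt p))
    simpa using h1
  ext y
  rw [← Finset.inv_smul_mem_iff, mem_mk, mem_mk, ← key (σ⁻¹ • y)]
  simp

theorem fix_eq : fix Oset = M24 ⊓ FixL Oidx := by
  have h : fix Oset = M24 ⊓ fixingSubgroup (Equiv.Perm GolayPt)
      ((mk O : Finset GolayPt) : Set GolayPt) := rfl
  rw [h, fixingSubgroup_O]

theorem Oidx_lt : ∀ f ∈ Oidx, f < 24 := by decide

theorem tabs16_rep : ∀ t ∈ tabs16, ∃ σ ∈ fix Oset, Rep σ t := by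
  intro t ht
  rw [tabs16, List.mem_filter] at ht
  obtain ⟨g, hgH, hg⟩ := tabs_rep t ht.1
  refine ⟨g, ?_, hg⟩
  rw [fix_eq]
  refine ⟨H_le_M24 hgH, (mem_FixL.mpr ?_ : g ∈ FixL Oidx)⟩
  intro f hf
  have h1 := List.all_eq_true.mp ht.2 f hf
  exact hg.apply_eq (Oidx_lt f hf) (by simpa using h1)

theorem sub_Oidx : ∀ f ∈ [5, 3, 2, 1, 0, 23], f ∈ Oidx := by decide

theorem T7_hit : T7.all (fun q => tabs16.any (fun t => t.getD 4 0 == q)) = true := by
  decide +kernel

theorem rep_of_fix : ∀ σ ∈ fix Oset, ∃ t ∈ tabs16, Rep σ t := by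
  intro σ hσ
  rw [fix_eq] at hσ
  have hσ' := hσ
  rw [fixO_eq] at hσ'
  obtain ⟨q, hq, hσq⟩ := hub7 hσ'
  obtain ⟨t, ht, hh⟩ := List.any_eq_true.mp (List.all_eq_true.mp T7_hit q hq)
  obtain ⟨g, hg, hgr⟩ := tabs16_rep t ht
  rw [fix_eq] at hg
  have hgq : g (pt 4) = pt q := hgr.apply_eq (by decide) (by simpa using hh)
  have hmem : g⁻¹ * σ ∈ M24 ⊓ FixL [4, 5, 3, 2, 1, 0, 23] := by
    have h1 := (M24 ⊓ FixL Oidx).mul_mem ((M24 ⊓ FixL Oidx).inv_mem hg) hσ
    refine ⟨h1.1, (mem_FixL.mpr ?_ : g⁻¹ * σ ∈ FixL [4, 5, 3, 2, 1, 0, 23])⟩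
    intro f hf
    rcases List.mem_cons.mp hf with rfl | hf'
    · show g⁻¹ (σ (pt 4)) = pt 4
      rw [hσq, ← hgq]
      simp
    · exact h1.2 f (sub_Oidx f hf')
  rw [rigid7, Subgroup.mem_bot] at hmem
  have hσg : σ = g := by
    have h2 := congrArg (fun x => g * x) hmem
    simpa using h2
  rw [hσg]
  exact ⟨t, ht, hgr⟩

theorem DM_mem : DM ∈ codeList := inCode_sound (by decide +kernel)

theorem W32_sub {m : Nat} (hm : m ∈ W32) : m ∈ codeList ∧ m &&& DM = m := by
  rw [W32, List.mem_filter] at hm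
  exact ⟨hm.1, by simpa using hm.2⟩

theorem W32_spec (c : Finset GolayPt) : (IsCW c ∧ c ⊆ Dset) ↔ ∃ m ∈ W32, mk m = c := by
  constructor
  · rintro ⟨hc, hcD⟩
    obtain ⟨m, hm, rfl⟩ := (mem_supports_iff c).mp hc
    refine ⟨m, ?_, rfl⟩
    rw [W32, List.mem_filter]
    refine ⟨hm, ?_⟩
    have h1 : mk (m &&& DM) = mk m := by
      rw [mk_and]
      exact Finset.inter_eq_left.mpr hcD
    have h2 : m &&& DM = m :=
      mk_injOn (lt_of_le_of_lt Nat.and_le_left (codeList_lt m hm)) (codeList_lt m hm) h1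
    simpa using h2
  · rintro ⟨m, hm, rfl⟩
    obtain ⟨h1, h2⟩ := W32_sub hm
    refine ⟨mk_mem_supports h1, ?_⟩
    rw [← h2, mk_and]
    exact Finset.inter_subset_right

theorem W32_length : W32.length = 32 := by decide +kernel

theorem W32_nodup : W32.Nodup := codeList_nodup.filter _

theorem card_words : Nat.card {c : Finset GolayPt // IsCW c ∧ c ⊆ Dset} = 32 := by
  have hS : {c : Finset GolayPt | IsCW c ∧ c ⊆ Dset} =
      ((W32.toFinset.image mk : Finset (Finset GolayPt)) : Set (Finset GolayPt)) := by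
    ext c
    simp only [Set.mem_ofPred_eq, Finset.coe_image, Set.mem_image, Finset.mem_coe,
      List.mem_toFinset]
    exact W32_spec c
  have h1 : Nat.card {c : Finset GolayPt // IsCW c ∧ c ⊆ Dset} =
      Set.ncard {c : Finset GolayPt | IsCW c ∧ c ⊆ Dset} := rfl
  rw [h1, hS, Set.ncard_coe_finset, Finset.card_image_of_injOn,
    List.toFinset_card_of_nodup W32_nodup, W32_length]
  intro a ha b hb hab
  rw [Finset.mem_coe, List.mem_toFinset] at ha hb
  exact mk_injOn (codeList_lt a (W32_sub ha).1) (codeList_lt b (W32_sub hb).1) hab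

theorem chk2 : tabs16.all (fun t => W32.all (fun m => maps t m m || maps t m (DM ^^^ m)))
    = true := by decide +kernel

theorem chk3 : tabs16.all (fun t => t == idT ||
    W32.any (fun m => maps t m (DM ^^^ m) && (DM ^^^ m != m))) = true := by decide +kernel

theorem chk4 : W32.all (fun m => m == 0 || m == DM ||
    tabs16.any (fun t => maps t m (DM ^^^ m) && (DM ^^^ m != m))) = true := by decide +kernel

theorem moved {σ : Equiv.Perm GolayPt} {t : List Nat} (hr : Rep σ t) {m : Nat} (hm : m ∈ W32)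
    (h : (maps t m (DM ^^^ m) && (DM ^^^ m != m)) = true) : σ • mk m ≠ mk m := by
  rw [Bool.and_eq_true] at h
  rw [smul_mk_of_maps hr h.1]
  intro heq
  have h1 := mk_injOn (codeList_lt _ (xor_mem_codeList DM_mem (W32_sub hm).1))
    (codeList_lt m (W32_sub hm).1) heq
  have h2 := h.2
  rw [h1] at h2
  simp at h2

theorem main : K1Str := by
  refine ⟨card_words, ?_, ?_, ?_⟩
  · intro σ hσ c hc hcD
    obtain ⟨t, ht, hr⟩ := rep_of_fix σ hσ
    obtain ⟨m, hm, rfl⟩ := (W32_spec c).1 ⟨hc, hcD⟩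
    have h1 := List.all_eq_true.mp (List.all_eq_true.mp chk2 t ht) m hm
    rw [Bool.or_eq_true] at h1
    rcases h1 with h1 | h1
    · left
      exact smul_mk_of_maps hr h1
    · right
      rw [smul_mk_of_maps hr h1, mk_xor]
      show symmDiff Dset (mk m) = Dset \ mk m
      rw [symmDiff_def, Finset.sdiff_eq_empty_iff_subset.mpr hcD]
      simp
  · intro σ hσ hne
    obtain ⟨t, ht, hr⟩ := rep_of_fix σ hσ
    have h1 := List.all_eq_true.mp chk3 t ht
    rw [Bool.or_eq_true] at h1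
    rcases h1 with h1 | h1
    · exfalso
      apply hne
      rw [beq_iff_eq] at h1
      rw [h1] at hr
      exact hr.eq_one
    · obtain ⟨m, hm, h2⟩ := List.any_eq_true.mp h1
      obtain ⟨hc, hcD⟩ := (W32_spec (mk m)).2 ⟨m, hm, rfl⟩
      exact ⟨mk m, hc, hcD, moved hr hm h2⟩
  · intro c hc hcD h0 hD'
    obtain ⟨m, hm, rfl⟩ := (W32_spec c).1 ⟨hc, hcD⟩
    have h1 := List.all_eq_true.mp chk4 m hm
    simp only [Bool.or_eq_true, beq_iff_eq] at h1
    rcases h1 with (h1 | h1) | h1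
    · exact absurd (by rw [h1, mk_zero]) h0
    · exact absurd (by rw [h1]; rfl) hD'
    · obtain ⟨t, ht, h2⟩ := List.any_eq_true.mp h1
      obtain ⟨σ, hσ, hr⟩ := tabs16_rep t ht
      exact ⟨σ, hσ, moved hr hm h2⟩

end Cfsg.Agent.Lib.Helper86.CzK1STR

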