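import Mathlib
import Cfsg.Agent.Lib.Helper26.J3Stmt
import Cfsg.Agent.S0246

/-!
# S3366 piece CON5 (helper86): the centre of `Sp(4,3)` is `± 1` and misses the stabilizer
-/

set_option autoImplicit false

namespace Cfsg.Agent.Lib.Helper86.J3CON5

open Cfsg.Agent.Lib.Helper26.J3Stmt

theorem main : Cfsg.Agent.Lib.Helper26.J3Stmt.CON5 := by
  intro g hg
  obtain ⟨a, ha, hga⟩ := Cfsg.Agent.S0246.center_scalar (F := ZMod 3) 2 (by norm_num) g hg
  have hdec : ∀ b : ZMod 3, b ^ 2 = 1 → b = 1 ∨ b = -1 := by decide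
  have ha' : a = 1 ∨ a = -1 := hdec a ha
  have hcases : ((g : Mat) = 1 ∨ (g : Mat) = -1) := by
    rcases ha' with rfl | rfl
    · left
      rw [hga, one_smul]
    · right
      rw [hga, neg_smul, one_smul]
  refine ⟨hcases, ?_⟩
  intro hP
  rcases hcases with h1 | h1
  · exact Subtype.ext h1
  · exfalso
    have h := hP (Sum.inl 0)
    rw [h1] at h
    simp at h
    revert h
    decide

end Cfsg.Agent.Lib.Helper86.J3CON5
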