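import Mathlib
import Cfsg.Agent.Lib.Helper26.J3Stmt
import Cfsg.Agent.Lib.Helper5.SL2Card

/-!
# S3366 piece KACT3 (helper86): the inverse `κ : SL(2,3) → K` of the action
-/

set_option autoImplicit false

namespace Cfsg.Agent.Lib.Helper86.J3KACT3

open Cfsg.Agent.Lib.Helper26.J3Stmt

universe u

theorem card_SL : Nat.card SL = 24 := by
  have h := Cfsg.Agent.Lib.Helper5.SL2Card.card_SL_two (F := ZMod 3) (q := 3) (ZMod.card 3)
  exact h.trans (by norm_num)

theorem main : Cfsg.Agent.Lib.Helper26.J3Stmt.KACT3.{u} := by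
  intro X _ hH hZ t K ι z hT hS hF hFaith hM
  obtain ⟨M, hM⟩ := hM
  obtain ⟨hKt, hKR, hKcard⟩ := hS
  obtain ⟨hιR, hιt, hzZ, hz1, hRform, hRuniq, hlaw⟩ := hF
  obtain ⟨hZcard, hZR, hZcomm, hZchar, hZcent⟩ := hZ
  have hfin : Finite X := hH.1
  have hMinj : Function.Injective M := by
    rw [injective_iff_map_eq_one]
    intro k hk
    have hcomm : ∀ u, (k : X) * ι u = ι u * (k : X) := by
      intro u
      have h := hM k u
      rw [hk] at h
      simpa using h
    have hkR : (k : X) ∈ R X := by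
      apply hFaith
      intro r hr
      obtain ⟨u, c, rfl⟩ := hRform r hr
      have hzc : (k : X) * z ^ c.val = z ^ c.val * (k : X) :=
        hZcent (z ^ c.val) ((Zc X).pow_mem hzZ _) k
      have hc2 : (k : X) * (ι u * z ^ c.val) = (ι u * z ^ c.val) * (k : X) := by
        rw [← mul_assoc, hcomm u, mul_assoc, hzc, ← mul_assoc]
      rw [hc2, mul_inv_cancel_right, mul_inv_cancel]
      exact Subgroup.one_mem _
    have hmem : (k : X) ∈ K ⊓ R X := ⟨k.2, hkR⟩
    rw [hKR, Subgroup.mem_bot] at hmem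
    exact Subtype.ext hmem
  have hMbij : Function.Bijective M :=
    (Nat.bijective_iff_injective_and_card M).mpr ⟨hMinj, by rw [hKcard, card_SL]⟩
  obtain ⟨e, he⟩ : ∃ e : K ≃* SL, ∀ k, e k = M k := ⟨MulEquiv.ofBijective M hMbij, fun _ => rfl⟩
  refine ⟨K.subtype.comp e.symm.toMonoidHom, ?_, ?_, ?_⟩
  · exact K.subtype_injective.comp e.symm.injective
  · intro A
    exact (e.symm A).2
  · intro A u
    have h := hM (e.symm A) u
    have hA : M (e.symm A) = A := by
      rw [← he]
      exact e.apply_symm_apply A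
    rw [hA] at h
    exact h

end Cfsg.Agent.Lib.Helper86.J3KACT3
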