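import Mathlib
import Cfsg.Agent.Lib.Helper1.PDStmt

/-!
S4020 piece NONCENT: a group of order `p³` with two independent central elements is abelian.
-/

set_option autoImplicit false

namespace Cfsg.Agent.Lib.Helper86.PDNONCENT

open Cfsg.Agent.Lib.Helper1.PDStmt

universe u

theorem main : NonCent.{u} := by
  intro X _ _ p _ P hP z hz hoz hzc b hb hbz hbc
  have hp : p.Prime := Fact.out
  have hzZ : (⟨z, hz⟩ : P) ∈ Subgroup.center P := by
    rw [Subgroup.mem_center_iff]
    intro g
    exact Subtype.ext (hzc g g.2)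
  have hbZ : (⟨b, hb⟩ : P) ∈ Subgroup.center P := by
    rw [Subgroup.mem_center_iff]
    intro g
    exact Subtype.ext (hbc g g.2)
  have hZdvd : Nat.card (Subgroup.center P) ∣ p ^ 3 := by
    rw [← hP]
    exact Subgroup.card_subgroup_dvd_card _
  obtain ⟨k, hk3, hk⟩ := (Nat.dvd_prime_pow hp).mp hZdvd
  have hle : Subgroup.zpowers (⟨z, hz⟩ : P) ≤ Subgroup.center P :=
    (Subgroup.zpowers_le).mpr hzZ
  have hcardz : Nat.card (Subgroup.zpowers (⟨z, hz⟩ : P)) = p := by
    rw [Nat.card_zpowers, Subgroup.orderOf_mk]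
    exact hoz
  have hlt : p < Nat.card (Subgroup.center P) := by
    by_contra hcon
    have hcon' : Nat.card (Subgroup.center P) ≤ p := not_lt.mp hcon
    have heq : Subgroup.zpowers (⟨z, hz⟩ : P) = Subgroup.center P :=
      Subgroup.eq_of_le_of_card_ge hle (by rw [hcardz]; exact hcon')
    have hbm : (⟨b, hb⟩ : P) ∈ Subgroup.zpowers (⟨z, hz⟩ : P) := by
      rw [heq]
      exact hbZ
    obtain ⟨n, hn⟩ := Subgroup.mem_zpowers_iff.mp hbm
    apply hbz
    refine Subgroup.mem_zpowers_iff.mpr ⟨n, ?_⟩
    have := congrArg Subtype.val hn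
    simpa using this
  have hk2 : 2 ≤ k := by
    rw [hk] at hlt
    by_contra hcon
    have hk1 : k ≤ 1 := by omega
    have : p ^ k ≤ p ^ 1 := Nat.pow_le_pow_right hp.pos hk1
    rw [pow_one] at this
    omega
  have hidx : (Subgroup.center P).index * p ^ k = p ^ 3 := by
    rw [← hk, ← hP]
    exact Subgroup.index_mul_card _
  have hcyc : IsCyclic (P ⧸ Subgroup.center P) := by
    have hcardq : Nat.card (P ⧸ Subgroup.center P) = (Subgroup.center P).index :=
      (Subgroup.index_eq_card _).symm
    have hk23 : k = 2 ∨ k = 3 := by omega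
    rcases hk23 with rfl | rfl
    · have h1 : (Subgroup.center P).index = p := by
        have h2 : p ^ 3 = p * p ^ 2 := by ring
        rw [h2] at hidx
        exact Nat.eq_of_mul_eq_mul_right (pow_pos hp.pos 2) hidx
      exact isCyclic_of_prime_card (p := p) (hcardq.trans h1)
    · have h1 : (Subgroup.center P).index = 1 :=
        Nat.eq_of_mul_eq_mul_right (pow_pos hp.pos 3) (hidx.trans (one_mul _).symm)
      have : Subsingleton (P ⧸ Subgroup.center P) :=
        (Nat.card_eq_one_iff_unique.mp (hcardq.trans h1)).1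
      exact isCyclic_of_subsingleton
  have hcomm : IsMulCommutative P :=
    (QuotientGroup.mk' (Subgroup.center P)).isMulCommutative_of_isCyclic_of_ker_le_center
      (by rw [QuotientGroup.ker_mk'])
  intro x hx y hy
  have := hcomm.is_comm.comm (⟨x, hx⟩ : P) ⟨y, hy⟩
  exact congrArg Subtype.val this

end Cfsg.Agent.Lib.Helper86.PDNONCENT
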