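import Mathlib
import Cfsg.Agent.Lib.Helper1.PDStmt

/-!
S4020 piece QSTEP: if `P ⊓ M = ⊥` the image of the Sylow subgroup `P` in `G ⧸ M` is a Sylow
subgroup of the same order.
-/

set_option autoImplicit false

namespace Cfsg.Agent.Lib.Helper86.PDQSTEP

open Cfsg.Agent.Lib.Helper1.PDStmt

universe u

theorem main : QStep.{u} := by
  intro G _ _ M _ p _ P hPM
  refine ⟨P.mapSurjective (QuotientGroup.mk'_surjective M), rfl, ?_⟩
  rw [Sylow.coe_mapSurjective]
  have hinj : Set.InjOn (QuotientGroup.mk' M) ((P : Subgroup G) : Set G) := by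
    intro a ha b hb hab
    have h1 : a⁻¹ * b ∈ M := by
      have : (a : G ⧸ M) = (b : G ⧸ M) := hab
      exact QuotientGroup.eq.mp this
    have h2 : a⁻¹ * b ∈ (P : Subgroup G) ⊓ M :=
      ⟨(P : Subgroup G).mul_mem ((P : Subgroup G).inv_mem ha) hb, h1⟩
    rw [hPM, Subgroup.mem_bot] at h2
    exact inv_mul_eq_one.mp h2
  show Nat.card ((((P : Subgroup G).map (QuotientGroup.mk' M) : Subgroup (G ⧸ M)) :
      Set (G ⧸ M))) = Nat.card (((P : Subgroup G) : Set G))
  rw [Nat.card_coe_set_eq, Nat.card_coe_set_eq, Subgroup.coe_map]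
  exact hinj.ncard_image

end Cfsg.Agent.Lib.Helper86.PDQSTEP
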