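import Cfsg.Agent.Lib.Helper53.RUStmt

/-!
# A lemma in dimension two for the pieces D2NIL and C13 of S2522
-/

set_option autoImplicit false

namespace Cfsg.Agent.Lib.Helper86.RUBase

universe u v

variable {K : Type u} [Field K] {W : Type v} [AddCommGroup W] [Module K W] [Module.Finite K W]

/-- in dimension two an endomorphism `N` with a non-trivial kernel and `det (1 + N) = 1` has
square zero -/
theorem sq_zero_of_dim_two (h2 : Module.finrank K W = 2) (N : Module.End K W)
    (hdet : LinearMap.det (1 + N) = 1) (v : W) (hv : v ≠ 0) (hNv : N v = 0) : N * N = 0 := by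
  classical
  let b : Module.Basis (Fin 2) K W := Module.finBasisOfFinrankEq K W h2
  have hdetN : LinearMap.det N = 0 := by
    rw [LinearMap.det_eq_zero_iff_ker_ne_bot]
    intro h
    have hmem : v ∈ LinearMap.ker N := hNv
    rw [h] at hmem
    exact hv ((Submodule.mem_bot K).1 hmem)
  obtain ⟨M, hM⟩ : ∃ M : Matrix (Fin 2) (Fin 2) K, M = LinearMap.toMatrix b b N := ⟨_, rfl⟩
  have hdM : M.det = 0 := by
    rw [hM, LinearMap.det_toMatrix]
    exact hdetN
  have hd1 : (1 + M).det = 1 := by
    rw [hM, ← LinearMap.toMatrix_one b, ← map_add, LinearMap.det_toMatrix]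
    exact hdet
  rw [Matrix.det_fin_two] at hdM hd1
  simp only [Matrix.add_apply, Matrix.one_apply_eq, Matrix.one_apply_ne, ne_eq, zero_ne_one,
    not_false_eq_true, one_ne_zero, zero_add] at hd1
  have htr : M 0 0 + M 1 1 = 0 := by linear_combination hd1 - hdM
  have hMM : M * M = 0 := by
    ext i j
    fin_cases i <;> fin_cases j <;>
      simp only [Matrix.mul_apply, Fin.sum_univ_two, Fin.zero_eta, Fin.mk_one, Fin.isValue,
        Matrix.zero_apply]
    · linear_combination M 0 0 * htr - hdM
    · linear_combination M 0 1 * htr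
    · linear_combination M 1 0 * htr
    · linear_combination M 1 1 * htr - hdM
  apply (LinearMap.toMatrix b b).injective
  rw [LinearMap.toMatrix_mul, map_zero, ← hM]
  exact hMM

end Cfsg.Agent.Lib.Helper86.RUBase
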