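import Cfsg.Agent.Lib.Helper86.RUBase

/-!
# Piece C13 of S2522: dimension three, eigenvalue one, `rank (g - 1) = 2`
-/

set_option autoImplicit false

namespace Cfsg.Agent.Lib.Helper86.RUC13

open Cfsg.Agent.Lib.Helper53.RUStmt

universe u v

theorem main : Cfsg.Agent.Lib.Helper53.RUStmt.CaseI3Stmt.{u, v} := by
  intro K _ V _ _ _ h3 g hdet hr φ hk
  obtain ⟨k, hAk, hφk⟩ := hk
  by_contra hcon
  have H : ∀ x : V, φ ((g - 1) x) = 0 → x ∈ LinearMap.range (g - 1) := by
    intro x hx
    by_contra hx'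
    exact hcon ⟨x, hx, hx'⟩
  have hk0 : k ≠ 0 := by
    rintro rfl
    exact hφk (map_zero φ)
  -- the kernel of `φ ∘ (g - 1)` is the range of `g - 1`
  have hLR : LinearMap.ker (φ ∘ₗ (g - 1)) ≤ LinearMap.range (g - 1) := fun x hx => H x hx
  have hL2 : 2 ≤ Module.finrank K (LinearMap.ker (φ ∘ₗ (g - 1))) := by
    have h1 := LinearMap.finrank_range_add_finrank_ker (φ ∘ₗ (g - 1))
    have h2 : Module.finrank K (LinearMap.range (φ ∘ₗ (g - 1))) ≤ 1 := by
      have := Submodule.finrank_le (LinearMap.range (φ ∘ₗ (g - 1)))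
      rwa [Module.finrank_self] at this
    rw [h3] at h1
    omega
  have hLeq : LinearMap.ker (φ ∘ₗ (g - 1)) = LinearMap.range (g - 1) :=
    Submodule.eq_of_le_of_finrank_le hLR (by rw [hr]; exact hL2)
  have hRφ : ∀ x ∈ LinearMap.range (g - 1), φ ((g - 1) x) = 0 := by
    intro x hx
    rw [← hLeq] at hx
    exact hx
  have hkR : k ∈ LinearMap.range (g - 1) := H k (by rw [hAk, map_zero])
  -- the kernel of `g - 1` is the line spanned by `k`
  have hker1 : Module.finrank K (LinearMap.ker (g - 1)) = 1 := by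
    have h1 := LinearMap.finrank_range_add_finrank_ker (g - 1)
    rw [h3, hr] at h1
    omega
  have hline : ∀ y : V, (g - 1) y = 0 → ∃ c : K, c • k = y := by
    intro y hy
    have hk' : (⟨k, hAk⟩ : LinearMap.ker (g - 1)) ≠ 0 := by
      intro h
      exact hk0 (congrArg Subtype.val h)
    obtain ⟨c, hc⟩ := (finrank_eq_one_iff_of_nonzero' _ hk').1 hker1 ⟨y, hy⟩
    exact ⟨c, congrArg Subtype.val hc⟩
  -- the determinant of `g` on the range of `g - 1`
  have hRR : LinearMap.range (g - 1) ≤ (LinearMap.range (g - 1)).comap g := by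
    intro x hx
    rw [Submodule.mem_comap]
    have e : g x = x + (g - 1) x := by
      rw [LinearMap.sub_apply, Module.End.one_apply]
      abel
    rw [e]
    exact Submodule.add_mem _ hx ⟨x, rfl⟩
  have hQ : (LinearMap.range (g - 1)).mapQ (LinearMap.range (g - 1)) g hRR = LinearMap.id := by
    apply LinearMap.ext
    intro q
    induction q using Submodule.Quotient.induction_on with
    | _ x =>
      rw [Submodule.mapQ_apply, LinearMap.id_apply, Submodule.Quotient.eq]
      exact ⟨x, by rw [LinearMap.sub_apply, Module.End.one_apply]⟩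
  obtain ⟨gR, hgR⟩ : ∃ gR : Module.End K ↥(LinearMap.range (g - 1)),
      ∀ y : ↥(LinearMap.range (g - 1)), ((gR y : ↥(LinearMap.range (g - 1))) : V) = g y ∧
      LinearMap.det gR = 1 := by
    refine ⟨g.restrict hRR, fun y => ⟨rfl, ?_⟩⟩
    have h := LinearMap.det_eq_det_mul_det (LinearMap.range (g - 1)) g hRR
    rw [hQ, LinearMap.det_id, mul_one, hdet] at h
    exact h.symm
  have hgR1 : ∀ y : ↥(LinearMap.range (g - 1)),
      (((gR - 1) y : ↥(LinearMap.range (g - 1))) : V) = (g - 1) (y : V) := by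
    intro y
    rw [LinearMap.sub_apply, Module.End.one_apply, LinearMap.sub_apply, Module.End.one_apply,
      Submodule.coe_sub, (hgR y).1]
  have hNN : (gR - 1) * (gR - 1) = 0 := by
    apply Cfsg.Agent.Lib.Helper86.RUBase.sq_zero_of_dim_two hr (gR - 1) _ ⟨k, hkR⟩
      (fun h => hk0 (congrArg Subtype.val h))
    · apply Subtype.ext
      rw [hgR1]
      exact hAk
    · rw [add_sub_cancel]
      exact (hgR 0).2
  -- `g - 1` kills its range
  have hkill : ∀ x ∈ LinearMap.range (g - 1), (g - 1) x = 0 := by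
    intro x hx
    have h1 : ((gR - 1) * (gR - 1)) ⟨x, hx⟩ = 0 := by rw [hNN]; rfl
    have h2 : (g - 1) ((g - 1) x) = 0 := by
      have := congrArg Subtype.val h1
      rw [Module.End.mul_apply, hgR1, hgR1] at this
      exact this
    obtain ⟨c, hc⟩ := hline _ h2
    have h4 := hRφ x hx
    rw [← hc, map_smul, smul_eq_mul] at h4
    rcases mul_eq_zero.1 h4 with h5 | h5
    · rw [← hc, h5, zero_smul]
    · exact absurd h5 hφk
  have hle : LinearMap.range (g - 1) ≤ LinearMap.ker (g - 1) := fun x hx => hkill x hx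
  have := Submodule.finrank_mono hle
  rw [hr, hker1] at this
  omega

end Cfsg.Agent.Lib.Helper86.RUC13
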