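import Cfsg.Agent.Lib.Helper86.RUBase

/-!
# Piece D2NIL of S2522: in dimension two, determinant one with a fixed vector is regular unipotent
-/

set_option autoImplicit false

namespace Cfsg.Agent.Lib.Helper86.RUD2NIL

open Cfsg.Agent.Lib.Helper53.RUStmt

universe u v

theorem main : Cfsg.Agent.Lib.Helper53.RUStmt.D2NilStmt.{u, v} := by
  intro K _ V _ _ _ h2 C hdet hC1 v hv hCv
  have hNv : (C - 1) v = 0 := by
    rw [LinearMap.sub_apply, hCv, Module.End.one_apply, sub_self]
  have hN0 : C - 1 ≠ 0 := fun h => hC1 (sub_eq_zero.1 h)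
  have hNN : (C - 1) * (C - 1) = 0 := by
    apply Cfsg.Agent.Lib.Helper86.RUBase.sq_zero_of_dim_two h2 (C - 1) _ v hv hNv
    rw [add_sub_cancel]
    exact hdet
  refine ⟨⟨2, by rw [pow_two]; exact hNN⟩, ?_⟩
  have hle : LinearMap.range (C - 1) ≤ LinearMap.ker (C - 1) := by
    rintro _ ⟨x, rfl⟩
    rw [LinearMap.mem_ker, ← Module.End.mul_apply, hNN]
    rfl
  have h1 := LinearMap.finrank_range_add_finrank_ker (C - 1)
  have h3 := Submodule.finrank_mono hle
  have h4 : Module.finrank K (LinearMap.range (C - 1)) ≠ 0 := by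
    intro h
    rw [Submodule.finrank_eq_zero] at h
    exact hN0 (LinearMap.range_eq_bot.1 h)
  rw [h2] at h1 ⊢
  omega

end Cfsg.Agent.Lib.Helper86.RUD2NIL
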