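import Mathlib
import Cfsg.Agent.Lib.Helper12.SNStmt
import Cfsg.Agent.S4074
/-!
# S4073 piece DIH (helper86)
-/

set_option autoImplicit false

namespace Cfsg.Agent.Lib.Helper86.SNDIH

open Cfsg.Agent.Lib.Helper12.SNDef Cfsg.Agent.Lib.Helper12.SNStmt

universe u

theorem main : Cfsg.Agent.Lib.Helper12.SNStmt.Dih.{u} := by
  intro L _ k hk hodd M φ H X hHX hXM hn hH
  have hSNd : SN (DihedralGroup k) := (Cfsg.Agent.S4074.result k hk).mpr (Or.inr hodd)
  have hSNM : SN M := SN.of_mulEquiv φ.symm hSNd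
  have hH' : ¬ IsMulCommutative (H.subgroupOf M) := by
    intro hc
    apply hH
    refine ⟨⟨fun a b => ?_⟩⟩
    have ha : (⟨a.1, hXM (hHX a.2)⟩ : M) ∈ H.subgroupOf M := Subgroup.mem_subgroupOf.mpr a.2
    have hb : (⟨b.1, hXM (hHX b.2)⟩ : M) ∈ H.subgroupOf M := Subgroup.mem_subgroupOf.mpr b.2
    have h1 := hc.is_comm.comm (⟨_, ha⟩ : H.subgroupOf M) ⟨_, hb⟩
    have h2 : (a : L) * (b : L) = (b : L) * (a : L) :=
      congrArg (fun z : H.subgroupOf M => ((z : M) : L)) h1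
    exact Subtype.ext h2
  have hnorm := hSNM _ hH'
  intro x hx
  have hxM : x ∈ M := hXM hx
  have h3 : (⟨x, hxM⟩ : M) ∈ Subgroup.normalizer ((H.subgroupOf M : Subgroup M) : Set M) := by
    rw [Subgroup.mem_normalizer_iff]
    intro y
    rw [Subgroup.mem_subgroupOf, Subgroup.mem_subgroupOf]
    exact (Subgroup.mem_normalizer_iff.mp (hn hx)) y.1
  rw [hnorm] at h3
  exact Subgroup.mem_subgroupOf.mp h3

end Cfsg.Agent.Lib.Helper86.SNDIH
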