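import Mathlib
import Cfsg.Agent.Lib.Helper44.SPStmt

/-!
# S2720 piece BLKA (helper86)
-/

set_option autoImplicit false

namespace Cfsg.Agent.Lib.Helper86.SPBLKA

open Matrix Polynomial
open Cfsg.Agent.Lib.Helper44.QSpace Cfsg.Agent.Lib.Helper44.OGroup Cfsg.Agent.Lib.Helper44.OMat
open Cfsg.Agent.Lib.Helper44.OExt Cfsg.Agent.Lib.Helper44.OCls2
open Cfsg.Agent.Lib.Helper40.RecipPoly
open Cfsg.Agent.Lib.Helper44.SPStmt

universe u

theorem main : NoFixIff.{u} → OrthList.{u} → DiscSq.{u} → Norm1.{u} → Norm2.{u} →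
    BlockEven.{u} := by
  intro hNoFix hOrth hDisc hN1 hN2
  intro F _ _ p _ _ h2 r hr hr2 hrp P hP hPm hPdvd hPne ι₁ _ _ s₁ N₁ hchar hsr hiso hdet k₁
    hcard hk₁
  have hrodd : Odd r := hr.odd_of_ne_two hr2
  have hnofix : ∀ v : ι₁ → F, s₁ *ᵥ v = v → v = 0 := by
    rw [hNoFix F ι₁ s₁, hchar]
    intro hd
    apply hPne
    have hassoc : Associated (X - C (1 : F)) P :=
      (irreducible_X_sub_C 1).associated_of_dvd hP hd
    exact (eq_of_monic_of_associated (monic_X_sub_C 1) hPm hassoc).symm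
  have heven : Even (Fintype.card ι₁) := ⟨k₁, by rw [hcard]; ring⟩
  obtain ⟨vs, hvs, hlen, hprod, c, hc, hQ⟩ := hOrth F ι₁ N₁ h2 hdet heven
  obtain ⟨c', hc', hD⟩ := hDisc F ι₁ s₁ N₁ h2 hiso hdet r hrodd hsr hnofix
  have hdeg : P.natDegree = 2 * k₁ := by
    rw [← hchar, Matrix.charpoly_natDegree_eq_dim, hcard]
  have : Fact (Irreducible P) := ⟨hP⟩
  have hn1 := hN1 F P hPm ⟨k₁, by rw [hdeg]; ring⟩ r hr hPdvd
  have hn2 := hN2 F p h2 r hr hr2 hrp P hPm hPdvd hPne k₁ hdeg hk₁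
  rw [hchar, hn1] at hD
  obtain ⟨n, hn⟩ : ∃ n : F,
      n = Algebra.norm F ((AdjoinRoot.root P)⁻¹ - AdjoinRoot.root P) := ⟨_, rfl⟩
  rw [← hn] at hD hn2
  refine ⟨vs, ?_⟩
  unfold GoodList
  refine ⟨hvs, ?_, ?_, ?_⟩
  · rw [hlen, hcard]
    exact ⟨k₁, by ring⟩
  · intro hsq
    apply hn2
    obtain ⟨y, hy⟩ := hsq
    rw [hQ] at hy
    have hy0 : y ≠ 0 := by
      rintro rfl
      rw [mul_zero] at hy
      rcases mul_eq_zero.mp hy with h | h
      · exact hc (pow_eq_zero_iff (by norm_num) |>.mp h)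
      · exact hdet h
    refine ⟨c * c' / y, ?_⟩
    field_simp
    linear_combination (c ^ 2) * hD - n * hy
  · intro x
    rw [hprod, hprod, Matrix.mulVec_neg]

end Cfsg.Agent.Lib.Helper86.SPBLKA
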