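import Mathlib
import Cfsg.Agent.Lib.Helper44.SPStmt

/-!
# S2720 piece BLOCK (helper86)
-/

set_option autoImplicit false

namespace Cfsg.Agent.Lib.Helper86.SPBLOCK

open Matrix Polynomial
open Cfsg.Agent.Lib.Helper44.QSpace Cfsg.Agent.Lib.Helper44.OGroup Cfsg.Agent.Lib.Helper44.OMat
open Cfsg.Agent.Lib.Helper44.OExt Cfsg.Agent.Lib.Helper44.OCls2
open Cfsg.Agent.Lib.Helper40.RecipPoly
open Cfsg.Agent.Lib.Helper44.SPStmt

universe u

theorem main : NoFixIff.{u} → EvenCard.{u} → BlockOdd.{u} → BlockEven.{u} → SelfRec.{u} →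
    BlockElt.{u} := by
  intro hNoFix hEven hOdd hBE hSR
  intro F _ _ p _ _ h2 r hr hr2 hrp P hP hPm hPdvd hPne ι₁ _ _ s₁ N₁ hchar hsr hiso hdet
  have hrodd : Odd r := hr.odd_of_ne_two hr2
  have hP0 : P.coeff 0 ≠ 0 := by
    apply coeff0_of_dvd hPdvd
    rw [coeff_sub, coeff_X_pow, coeff_C_zero, if_neg hr.pos.ne]
    simp
  have hX1 : ¬ (X - C (1 : F)) ∣ P := by
    intro hd
    apply hPne
    exact (eq_of_monic_of_associated (monic_X_sub_C 1) hPm
      ((irreducible_X_sub_C 1).associated_of_dvd hP hd)).symm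
  have hX1' : ¬ (X - C (1 : F)) ∣ rstar (RingHom.id F) P := by
    rintro ⟨c, hc⟩
    apply hX1
    have h1 := rstar_star (RingHom.id F) (fun x => rfl) P hPm hP0
    rw [hc, rstar_mul, rstar_X_sub_one] at h1
    exact ⟨_, h1.symm⟩
  have hnofix : ∀ v : ι₁ → F, s₁ *ᵥ v = v → v = 0 := by
    rw [hNoFix F ι₁ s₁, hchar]
    unfold cW
    split_ifs with h
    · exact hX1
    · intro hd
      rcases (prime_X_sub_C (1 : F)).dvd_or_dvd hd with h | h
      · exact hX1 h
      · exact hX1' h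
  obtain ⟨k₁, hk₁⟩ := hEven F ι₁ s₁ N₁ h2 hiso hdet r hrodd hsr hnofix
  have hcard : Fintype.card ι₁ = 2 * k₁ := by rw [hk₁]; ring
  have hrF : (r : F) ≠ 0 := by
    intro h
    have h1 := (CharP.cast_eq_zero_iff F p r).mp h
    exact hrp ((Nat.prime_dvd_prime_iff_eq Fact.out hr).mp h1).symm
  rcases Nat.even_or_odd k₁ with hev | hodd
  · have hself : rstar (RingHom.id F) P = P := by
      by_contra hne
      have hcw : cW P = P * rstar (RingHom.id F) P := by
        unfold cW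
        rw [if_neg hne]
      have hdeg : (cW P).natDegree = 2 * k₁ := by
        rw [← hchar, Matrix.charpoly_natDegree_eq_dim, hcard]
      rw [hcw, natDegree_mul hP.ne_zero (rstar_monic _ P hP0).ne_zero,
        rstar_natDegree _ _ hP0] at hdeg
      have hPk : P.natDegree = k₁ := by omega
      exact hne (hSR F p r hr hrp P hP hPm hPdvd hPne (hPk ▸ hev))
    have hcw : cW P = P := by
      unfold cW
      rw [if_pos hself]
    exact hBE F p h2 r hr hr2 hrp P hP hPm hPdvd hPne ι₁ s₁ N₁ (hchar.trans hcw) hsr hiso hdet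
      k₁ hcard hev
  · exact hOdd F ι₁ (qN N₁) h2 (sep_qN hdet) s₁ r hrodd hrF hsr (fun u => qN_isom hiso u)
      hnofix k₁ hcard hodd

end Cfsg.Agent.Lib.Helper86.SPBLOCK
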