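import Mathlib
import Cfsg.Agent.Lib.Helper44.SPStmt

/-!
# S2720 piece MODEL (helper86)
-/

set_option autoImplicit false

namespace Cfsg.Agent.Lib.Helper86.SPMODEL

open Matrix Polynomial
open Cfsg.Agent.Lib.Helper44.QSpace Cfsg.Agent.Lib.Helper44.OGroup Cfsg.Agent.Lib.Helper44.OMat
open Cfsg.Agent.Lib.Helper44.OExt Cfsg.Agent.Lib.Helper44.OCls2
open Cfsg.Agent.Lib.Helper40.RecipPoly
open Cfsg.Agent.Lib.Helper44.SPStmt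

universe u

theorem main : NoFixIff.{u} → ModA.{u} → IsoEx.{u} → ConjIso.{u} → ModelIso.{u} := by
  intro hNoFix hModA hIso hConj
  intro F _ _ p _ _ ι _ _ Q h2 hSep k hcard S r hr hr2 hrp hS hiso hnofix
  have hrodd : Odd r := hr.odd_of_ne_two hr2
  have hrF : (r : F) ≠ 0 := by
    intro h
    have h1 := (CharP.cast_eq_zero_iff F p r).mp h
    exact hrp ((Nat.prime_dvd_prime_iff_eq Fact.out hr).mp h1).symm
  have hpos : 0 < Fintype.card ι := by rw [hcard]; omega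
  obtain ⟨P, c', hP, hPm, hPdvd, hPne, hchar, ⟨ι₁, i1, i2, s₁, N₁, hc1, hs1, hi1, hd1⟩,
    ⟨ι₂, j1, j2, s₂, N₂, hc2, hs2, hi2, hd2⟩⟩ :=
    hModA F p ι Q hSep hpos S r hr hr2 hrp hS hiso hnofix
  have hX : ¬ (X - C (1 : F)) ∣ S.charpoly := (hNoFix F ι S).mp hnofix
  obtain ⟨j, hj⟩ := hIso F p ι Q hSep k hcard S r hr hr2 hrp hS hiso hX ι₁ s₁ N₁ ι₂ s₂ N₂
    hs1 hi1 hd1 hs2 hi2 hd2 (by rw [hchar, hc1, hc2])
  set S' : Matrix (ι₁ ⊕ ι₂) (ι₁ ⊕ ι₂) F := Matrix.fromBlocks s₁ 0 0 s₂ with hS'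
  have hmv : ∀ u : ι₁ ⊕ ι₂ → F,
      S' *ᵥ u = Sum.elim (s₁ *ᵥ (u ∘ Sum.inl)) (s₂ *ᵥ (u ∘ Sum.inr)) := by
    intro u
    rw [hS', Matrix.fromBlocks_mulVec]
    simp
  have hS'r : S' ^ r = 1 := by
    rw [hS', Matrix.fromBlocks_diagonal_pow, hs1, hs2, Matrix.fromBlocks_one]
  have hS'iso : ∀ u, Q (j (S' *ᵥ u)) = Q (j u) := by
    intro u
    rw [hj, hj, hmv]
    simp only [Sum.elim_comp_inl, Sum.elim_comp_inr]
    rw [qN_isom hi1, qN_isom hi2]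
  have hS'char : S'.charpoly = S.charpoly := by
    rw [hchar, hS', Matrix.charpoly_fromBlocks_zero₁₂, hc1, hc2]
  obtain ⟨J, hJ1, hJ2⟩ := hConj F ι Q hSep S r hrodd hrF hS hiso (ι₁ ⊕ ι₂) S' j hS'r hS'iso
    hS'char
  refine ⟨P, ι₁, i1, i2, s₁, N₁, ι₂, j1, j2, s₂, N₂, J, hP, hPm, hPdvd, hPne, hc1, hs1, hi1,
    hd1, ?_, ?_⟩
  · intro u
    rw [hJ1, hj]
  · intro u
    rw [← hmv]
    exact hJ2 u

end Cfsg.Agent.Lib.Helper86.SPMODEL
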