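import Mathlib
import Cfsg.Agent.Lib.Helper26.T64Stmt

/-!
# S3157 piece COMMID (helper86): `[s, ρ t] = ρ² [s, t]`
-/

set_option autoImplicit false

namespace Cfsg.Agent.Lib.Helper86.T64COMMID

open Cfsg.Agent.Lib.Helper26.T64Stmt

universe u

/-- the final computation in a commutative group -/
theorem comm_exp2 {Z : Type*} [CommGroup Z] (u ru rru z rz rrz : Z)
    (e3 : rru = z * (ru * rz)) (e4u : u * ru * rru = 1) (e4z : z * rz * rrz = 1)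
    (sq : ru * ru = 1) : u = rrz := by
  have k1 : u * ru * (z * (ru * rz)) = 1 := by
    rw [← e3]
    exact e4u
  have k2 : u * (z * rz) = 1 := by
    have h : u * ru * (z * (ru * rz)) = u * (z * rz) * (ru * ru) := by ac_rfl
    rw [h, sq, mul_one] at k1
    exact k1
  calc u = u * (z * rz * rrz) := by rw [e4z, mul_one]
    _ = u * (z * rz) * rrz := (mul_assoc u (z * rz) rrz).symm
    _ = rrz := by rw [k2, one_mul]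

open scoped IsMulCommutative in
theorem main : Cfsg.Agent.Lib.Helper26.T64Stmt.COMMID.{u} := by
  intro T _ _ ρ hρ hF hZ hSq s t
  have h3 : ∀ y : T, ρ (ρ (ρ y)) = y := by
    intro y
    have h := pow_orderOf_eq_one ρ
    rw [hρ, pow_three'] at h
    have h' := congrArg (fun f : MulAut T => f y) h
    simpa [MulAut.mul_apply] using h'
  have hρZ : ∀ z ∈ Subgroup.center T, ρ z ∈ Subgroup.center T := by
    intro z hz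
    rw [Subgroup.mem_center_iff] at hz ⊢
    intro g
    have h1 := hz (ρ.symm g)
    have h2 := congrArg ρ h1
    simpa using h2
  have hcZ : ∀ s t : T, s * t * s⁻¹ * t⁻¹ ∈ Subgroup.center T := by
    intro s t
    have h1 : s * t * s⁻¹ * t⁻¹ = (s * t) * (s * t) * (s * s)⁻¹ * (t * t)⁻¹ := by
      have hss := Subgroup.mem_center_iff.mp (Subgroup.inv_mem _ (hSq s))
      calc s * t * s⁻¹ * t⁻¹ = s * t * ((s * s)⁻¹ * (s * t)) * (t * t)⁻¹ := by group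
        _ = s * t * ((s * t) * (s * s)⁻¹) * (t * t)⁻¹ := by rw [← hss (s * t)]
        _ = (s * t) * (s * t) * (s * s)⁻¹ * (t * t)⁻¹ := by group
    rw [h1]
    exact Subgroup.mul_mem _ (Subgroup.mul_mem _ (hSq (s * t)) (Subgroup.inv_mem _ (hSq s)))
      (Subgroup.inv_mem _ (hSq t))
  have hinv : ∀ z ∈ Subgroup.center T, z⁻¹ = z :=
    fun z hz => inv_eq_of_mul_eq_one_left (hZ z hz)
  have hmulR : ∀ s t t' : T, s * (t * t') * s⁻¹ * (t * t')⁻¹ =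
      (s * t * s⁻¹ * t⁻¹) * (s * t' * s⁻¹ * t'⁻¹) := by
    intro s t t'
    have hc := Subgroup.mem_center_iff.mp (hcZ s t')
    calc s * (t * t') * s⁻¹ * (t * t')⁻¹
        = s * t * s⁻¹ * ((s * t' * s⁻¹ * t'⁻¹) * t⁻¹) := by group
      _ = s * t * s⁻¹ * (t⁻¹ * (s * t' * s⁻¹ * t'⁻¹)) := by rw [← hc t⁻¹]
      _ = (s * t * s⁻¹ * t⁻¹) * (s * t' * s⁻¹ * t'⁻¹) := by group
  have hmulL : ∀ s s' t : T, (s * s') * t * (s * s')⁻¹ * t⁻¹ =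
      (s * t * s⁻¹ * t⁻¹) * (s' * t * s'⁻¹ * t⁻¹) := by
    intro s s' t
    have hc := Subgroup.mem_center_iff.mp (hcZ s' t)
    calc (s * s') * t * (s * s')⁻¹ * t⁻¹
        = s * (s' * t * s'⁻¹ * t⁻¹) * (t * s⁻¹ * t⁻¹) := by group
      _ = (s' * t * s'⁻¹ * t⁻¹) * s * (t * s⁻¹ * t⁻¹) := by rw [hc s]
      _ = (s' * t * s'⁻¹ * t⁻¹) * (s * t * s⁻¹ * t⁻¹) := by group
      _ = (s * t * s⁻¹ * t⁻¹) * (s' * t * s'⁻¹ * t⁻¹) := (hc _).symm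
  have hinvR : ∀ s t : T, s * t⁻¹ * s⁻¹ * t⁻¹⁻¹ = s * t * s⁻¹ * t⁻¹ := by
    intro s t
    have h1 : (s * t * s⁻¹ * t⁻¹) * (s * t⁻¹ * s⁻¹ * t⁻¹⁻¹) = 1 := by
      rw [← hmulR]
      group
    rw [eq_inv_of_mul_eq_one_right h1, hinv _ (hcZ s t)]
  have hinvL : ∀ s t : T, s⁻¹ * t * s⁻¹⁻¹ * t⁻¹ = s * t * s⁻¹ * t⁻¹ := by
    intro s t
    have h1 : (s * t * s⁻¹ * t⁻¹) * (s⁻¹ * t * s⁻¹⁻¹ * t⁻¹) = 1 := by
      rw [← hmulL]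
      group
    rw [eq_inv_of_mul_eq_one_right h1, hinv _ (hcZ s t)]
  have hρρ : ∀ y : T, ρ (ρ y) = (y * ρ y)⁻¹ := fun y => eq_inv_of_mul_eq_one_right (hF y).1
  have L1 : ∀ s t : T, s * ρ (ρ t) * s⁻¹ * (ρ (ρ t))⁻¹ =
      (s * t * s⁻¹ * t⁻¹) * (s * ρ t * s⁻¹ * (ρ t)⁻¹) := by
    intro s t
    rw [hρρ t, hinvR s (t * ρ t), hmulR]
  have L1' : ∀ s t : T, ρ (ρ s) * t * (ρ (ρ s))⁻¹ * t⁻¹ =
      (s * t * s⁻¹ * t⁻¹) * (ρ s * t * (ρ s)⁻¹ * t⁻¹) := by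
    intro s t
    rw [hρρ s, hinvL (s * ρ s) t, hmulL]
  have hρc : ∀ s t : T, ρ (s * t * s⁻¹ * t⁻¹) = ρ s * ρ t * (ρ s)⁻¹ * (ρ t)⁻¹ := by
    intro s t
    simp [map_mul, map_inv]
  -- notation: z = [s,t], u = [s, ρ t], A = [ρ s, t]
  have hz : s * t * s⁻¹ * t⁻¹ ∈ Subgroup.center T := hcZ s t
  have hu : s * ρ t * s⁻¹ * (ρ t)⁻¹ ∈ Subgroup.center T := hcZ s (ρ t)
  have E2 : ρ (s * ρ t * s⁻¹ * (ρ t)⁻¹) =
      (ρ s * t * (ρ s)⁻¹ * t⁻¹) * ρ (s * t * s⁻¹ * t⁻¹) := by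
    rw [hρc s (ρ t), L1 (ρ s) t, hρc s t]
  have hz2 : ρ (s * t * s⁻¹ * t⁻¹) * ρ (s * t * s⁻¹ * t⁻¹) = 1 := hZ _ (hρZ _ hz)
  have EA : ρ s * t * (ρ s)⁻¹ * t⁻¹ =
      ρ (s * ρ t * s⁻¹ * (ρ t)⁻¹) * ρ (s * t * s⁻¹ * t⁻¹) := by
    rw [E2, mul_assoc (ρ s * t * (ρ s)⁻¹ * t⁻¹), hz2, mul_one]
  have E3 : ρ (ρ (s * ρ t * s⁻¹ * (ρ t)⁻¹)) =
      (s * t * s⁻¹ * t⁻¹) * (ρ (s * ρ t * s⁻¹ * (ρ t)⁻¹) * ρ (s * t * s⁻¹ * t⁻¹)) := by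
    rw [← EA, hρc s (ρ t), hρc (ρ s) (ρ (ρ t)), h3 t, L1' s t]
  have hsq : ρ (s * ρ t * s⁻¹ * (ρ t)⁻¹) * ρ (s * ρ t * s⁻¹ * (ρ t)⁻¹) = 1 :=
    hZ _ (hρZ _ hu)
  have key := comm_exp2 (Z := Subgroup.center T)
    ⟨s * ρ t * s⁻¹ * (ρ t)⁻¹, hu⟩ ⟨ρ (s * ρ t * s⁻¹ * (ρ t)⁻¹), hρZ _ hu⟩
    ⟨ρ (ρ (s * ρ t * s⁻¹ * (ρ t)⁻¹)), hρZ _ (hρZ _ hu)⟩
    ⟨s * t * s⁻¹ * t⁻¹, hz⟩ ⟨ρ (s * t * s⁻¹ * t⁻¹), hρZ _ hz⟩
    ⟨ρ (ρ (s * t * s⁻¹ * t⁻¹)), hρZ _ (hρZ _ hz)⟩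
    (Subtype.ext E3) (Subtype.ext (hF _).1) (Subtype.ext (hF _).1) (Subtype.ext hsq)
  exact congrArg Subtype.val key

end Cfsg.Agent.Lib.Helper86.T64COMMID
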