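import Mathlib
import Cfsg.Agent.Lib.Helper26.T64Stmt

/-!
# S3157 piece CXCARD (helper86)
-/

set_option autoImplicit false

namespace Cfsg.Agent.Lib.Helper86.T64CXCARD

open Cfsg.Agent.Lib.Helper26.T64Stmt

universe u

theorem main : Cfsg.Agent.Lib.Helper26.T64Stmt.CXCARD.{u} := by
  intro T _ _ ρ x hcard hρ hx hinv hFpf hXF C hC
  have h3 : ∀ y : T, ρ (ρ (ρ y)) = y := by
    intro y
    have h := pow_orderOf_eq_one ρ
    rw [hρ, pow_three'] at h
    have h' := congrArg (fun f : MulAut T => f y) h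
    simpa [MulAut.mul_apply] using h'
  have hxρ : ∀ y : T, x (ρ y) = ρ⁻¹ (x y) := by
    intro y
    have h : x * ρ = ρ⁻¹ * x := by
      rw [← hinv]
      group
    have h' := congrArg (fun f : MulAut T => f y) h
    simpa [MulAut.mul_apply] using h'
  have key : ∀ s : T, x s = s → x (ρ s) = ρ s → s = 1 := by
    intro s hs hρs
    have h1 : ρ s = ρ⁻¹ s := by
      rw [← hρs]
      rw [hxρ s, hs]
    have h2 : ρ (ρ s) = s := by
      rw [h1]
      simp
    apply hFpf
    have h4 := h3 s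
    rw [h2] at h4
    exact h4
  have hbij : Function.Bijective (fun p : C × C => (p.1 : T) * ρ (p.2 : T)) := by
    constructor
    · rintro ⟨c₁, c₁'⟩ ⟨c₂, c₂'⟩ h
      simp only at h
      -- s := c₂' * c₁'⁻¹
      have hs1 : x ((c₂' : T) * (c₁' : T)⁻¹) = (c₂' : T) * (c₁' : T)⁻¹ :=
        (hC _).mp (C.mul_mem c₂'.2 (C.inv_mem c₁'.2))
      have hs2 : ρ ((c₂' : T) * (c₁' : T)⁻¹) = (c₂ : T)⁻¹ * (c₁ : T) := by
        rw [map_mul, map_inv]
        have h5 : ρ (c₂' : T) = (c₂ : T)⁻¹ * ((c₁ : T) * ρ (c₁' : T)) := by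
          rw [h]
          group
        rw [h5]
        group
      have hs3 : x (ρ ((c₂' : T) * (c₁' : T)⁻¹)) = ρ ((c₂' : T) * (c₁' : T)⁻¹) := by
        rw [hs2]
        exact (hC _).mp (C.mul_mem (C.inv_mem c₂.2) c₁.2)
      have hs := key _ hs1 hs3
      have e1 : (c₂' : T) = (c₁' : T) := by
        have := mul_inv_eq_one.mp hs
        exact this
      have e2 : (c₂ : T)⁻¹ * (c₁ : T) = 1 := by
        rw [← hs2, hs, map_one]
      have e3 : (c₁ : T) = (c₂ : T) := by
        have := inv_mul_eq_one.mp e2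
        exact this.symm
      exact Prod.ext (Subtype.ext e3) (Subtype.ext e1.symm)
    · intro t
      obtain ⟨c, c', hc, hc', ht⟩ := hXF t
      exact ⟨(⟨c, (hC c).mpr hc⟩, ⟨c', (hC c').mpr hc'⟩), ht.symm⟩
  have h1 : Nat.card (C × C) = Nat.card T := Nat.card_congr (Equiv.ofBijective _ hbij)
  rw [Nat.card_prod, hcard] at h1
  have h2 : Nat.card C * Nat.card C = 8 * 8 := by
    rw [h1]
  exact Nat.mul_self_inj.mp h2

end Cfsg.Agent.Lib.Helper86.T64CXCARD
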