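import Mathlib
import Cfsg.Agent.Lib.Helper39.TLStmt

/-!
# S4404 piece NORMA (helper86): an abelian subgroup normalized by the 3-group `T ∋ x`
normalizes `W`
-/

set_option autoImplicit false

namespace Cfsg.Agent.Lib.Helper86.TLNORMA

open Cfsg Cfsg.Agent.Lib.Helper39.TLStmt

universe u

theorem main (h3 : Cfsg.Agent.Lib.Helper39.TLStmt.PW3.{u})
    (hC : Cfsg.Agent.Lib.Helper39.TLStmt.Conj.{u}) :
    Cfsg.Agent.Lib.Helper39.TLStmt.NormA.{u} := by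
  intro S _ _ M _ hM T A hT hAT hTA hAab x W hxT hR a ha
  by_contra hne
  obtain ⟨φ, hφ⟩ : ∃ φ : S →* S, φ = (MulAut.conj a).toMonoidHom := ⟨_, rfl⟩
  obtain ⟨y, hy⟩ : ∃ y : S, y = a * x * a⁻¹ := ⟨_, rfl⟩
  obtain ⟨Wy, hWy⟩ : ∃ Wy : Subgroup S, Wy = W.map φ := ⟨_, rfl⟩
  obtain ⟨y', hy'⟩ : ∃ y' : S, y' = a * y * a⁻¹ := ⟨_, rfl⟩
  rw [← hφ, ← hWy] at hne
  have haT : a ∈ T := hAT ha
  have hyT : y ∈ T := by
    rw [hy]
    exact T.mul_mem (T.mul_mem haT hxT) (T.inv_mem haT)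
  have hy'T : y' ∈ T := by
    rw [hy']
    exact T.mul_mem (T.mul_mem haT hyT) (T.inv_mem haT)
  have hRy : IsRefl M y Wy := by
    rw [hy, hWy, hφ]
    exact hC S M x W a hR
  have hRy' : IsRefl M y' (Wy.map φ) := by
    rw [hy', hφ]
    exact hC S M y Wy a hRy
  have hne1 : W ≠ Wy := fun h => hne h.symm
  have hne2 : Wy.map φ ≠ Wy := by
    intro h
    have hinj : Function.Injective (Subgroup.map φ) := by
      apply Subgroup.map_injective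
      rw [hφ]
      exact (MulAut.conj a).injective
    rw [hWy] at h
    exact hne (by rw [hWy]; exact (hinj h))
  have hx_c : ∀ v ∈ Wy, x * v * x⁻¹ = v :=
    h3 S M hM T hT x y W Wy hxT hyT hR hRy hne1
  have hy'_c : ∀ v ∈ Wy, y' * v * y'⁻¹ = v :=
    h3 S M hM T hT y' y (Wy.map φ) Wy hy'T hyT hRy' hRy hne2
  have hcA : x * a⁻¹ * x⁻¹ ∈ A := hTA x hxT a⁻¹ (A.inv_mem ha)
  have hc : a * (a * (x * a⁻¹ * x⁻¹)) = (a * (x * a⁻¹ * x⁻¹)) * a :=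
    hAab a ha (a * (x * a⁻¹ * x⁻¹)) (A.mul_mem ha hcA)
  have hkey : y * x⁻¹ = y' * y⁻¹ := by
    have e1 : y * x⁻¹ = a * (x * a⁻¹ * x⁻¹) := by
      rw [hy]
      group
    have e2 : y' * y⁻¹ = a * (a * (x * a⁻¹ * x⁻¹)) * a⁻¹ := by
      rw [hy', hy]
      group
    rw [e1, e2, hc, mul_inv_cancel_right]
  have hyW : ∀ v ∈ Wy, y * v * y⁻¹ ∈ Wy := by
    intro v hv
    have hvM := hRy.le hv
    have h1 := hRy.comm v hvM
    have h2 : y * v * y⁻¹ = (y * v * y⁻¹ * v⁻¹) * v := by group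
    rw [h2]
    exact Wy.mul_mem h1 hv
  have hy3 : ∀ m ∈ M, y ^ 3 * m = m * y ^ 3 := by
    intro m hm
    have h := hRy.cube
    rw [Subgroup.mem_centralizer_iff] at h
    exact (h m hm).symm
  have hsq : ∀ u ∈ Wy, y * y * u * y⁻¹ * y⁻¹ = u := by
    intro u hu
    have hu' := hyW u hu
    have h1 := hx_c _ hu'
    have h2 := hy'_c u hu
    have h1' : x⁻¹ * (y * u * y⁻¹) * x = y * u * y⁻¹ := by
      calc x⁻¹ * (y * u * y⁻¹) * x = x⁻¹ * (x * (y * u * y⁻¹) * x⁻¹) * x := by rw [h1]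
        _ = y * u * y⁻¹ := by group
    calc y * y * u * y⁻¹ * y⁻¹ = y * (y * u * y⁻¹) * y⁻¹ := by group
      _ = y * (x⁻¹ * (y * u * y⁻¹) * x) * y⁻¹ := by rw [h1']
      _ = (y * x⁻¹) * (y * u * y⁻¹) * (y * x⁻¹)⁻¹ := by group
      _ = (y' * y⁻¹) * (y * u * y⁻¹) * (y' * y⁻¹)⁻¹ := by rw [hkey]
      _ = y' * u * y'⁻¹ := by group
      _ = u := h2
  have hcen : ∀ u ∈ Wy, y * u * y⁻¹ = u := by
    intro u hu
    have h1 := hsq u hu
    have h3' := hy3 u (hRy.le hu)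
    have h4 : y * u * y⁻¹ = y ^ 3 * (y⁻¹ * y⁻¹ * u * y * y) * (y ^ 3)⁻¹ := by group
    have h5 : y⁻¹ * y⁻¹ * u * y * y = u := by
      calc y⁻¹ * y⁻¹ * u * y * y = y⁻¹ * y⁻¹ * (y * y * u * y⁻¹ * y⁻¹) * y * y := by rw [h1]
        _ = u := by group
    rw [h4, h5, h3', mul_inv_cancel_right]
  have hbot : ∀ u ∈ Wy, u = 1 := fun u hu => hRy.fix u hu (hcen u hu)
  have hcard := hRy.card
  have hWbot : Wy = ⊥ := (Subgroup.eq_bot_iff_forall _).mpr hbot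
  rw [hWbot, Subgroup.card_bot] at hcard
  norm_num at hcard

end Cfsg.Agent.Lib.Helper86.TLNORMA
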